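import Cfsg.Agent.H41.McL.Data
import Cfsg.Agent.H14.StabSimple
import Cfsg.Prelude.Def_Spor_Conway

/-! The McLaughlin group as the stabiliser of two minimal vectors adapted to an involution. -/

set_option autoImplicit false
set_option maxRecDepth 20000

namespace Cfsg.Agent.H41.McL

open Finset Cfsg.Agent.H14 Cfsg.Agent.H15

/-- The first vector. -/
def aL : ↥leechLattice := ofCode Data.pA (by decide +kernel)

/-- The second vector. -/
def bL : ↥leechLattice := ofCode Data.pB (by decide +kernel)

theorem sqNorm_aL : sqNorm (aL : V) = 32 := by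
  rw [aL, ofCode_val, sqNorm_vecOf]; decide +kernel

theorem sqNorm_bL : sqNorm (bL : V) = 32 := by
  rw [bL, ofCode_val, sqNorm_vecOf]; decide +kernel

theorem dot_aL_bL : dotInt (aL : V) (bL : V) = -8 := by
  rw [aL, bL, ofCode_val, ofCode_val, dot_vecOf]; decide +kernel

/-- The group. -/
def KK : Subgroup ↥Co0 := MulAction.stabilizer ↥Co0 aL ⊓ MulAction.stabilizer ↥Co0 bL

theorem card_KK : Nat.card ↥KK = 898128000 := card_mcl sqNorm_aL sqNorm_bL dot_aL_bL

/-- The test of membership in the group. -/
def inKTest (e : SPerm) : Bool := permTest e.img && fixTest e Data.pA && fixTest e Data.pB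

theorem mem_KK_of_sem {g : ↥Co0} {e : SPerm} (hg : Sem g e) (h : inKTest e = true) : g ∈ KK := by
  simp only [inKTest, Bool.and_eq_true] at h
  exact ⟨MulAction.mem_stabilizer_iff.2 (smul_of_fixTest hg h.1.1 rfl h.1.2),
    MulAction.mem_stabilizer_iff.2 (smul_of_fixTest hg h.1.1 rfl h.2)⟩

theorem matH_ok : Data.matH.ok = true := by decide +kernel

theorem matC_ok : Data.matC.ok = true := by decide +kernel

/-- The conjugating element. -/
noncomputable def hE : ↥Co0 := matAut Data.matH matH_ok

/-- The non-monomial element of the centraliser. -/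
noncomputable def cE : ↥Co0 := matAut Data.matC matC_ok

theorem hE_mem : hE ∈ KK :=
  ⟨MulAction.mem_stabilizer_iff.2 (smul_eq_self_of_check matH_ok (P := Data.pA) (by decide +kernel) rfl),
    MulAction.mem_stabilizer_iff.2 (smul_eq_self_of_check matH_ok (P := Data.pB) (by decide +kernel) rfl)⟩

theorem cE_mem : cE ∈ KK :=
  ⟨MulAction.mem_stabilizer_iff.2 (smul_eq_self_of_check matC_ok (P := Data.pA) (by decide +kernel) rfl),
    MulAction.mem_stabilizer_iff.2 (smul_eq_self_of_check matC_ok (P := Data.pB) (by decide +kernel) rfl)⟩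

/-- The involution. -/
noncomputable def tE : ↥Co0 := sElt Data.spT

/-- A monomial conjugate of the involution. -/
noncomputable def piE : ↥Co0 := sElt Data.spPi

/-- A square root of the involution. -/
noncomputable def rE : ↥Co0 := sElt Data.spR

theorem sem_tE : Sem tE Data.spT := sem_sElt (by decide +kernel)

theorem sem_piE : Sem piE Data.spPi := sem_sElt (by decide +kernel)

theorem sem_rE : Sem rE Data.spR := sem_sElt (by decide +kernel)

theorem tE_mem : tE ∈ KK := mem_KK_of_sem sem_tE (by decide +kernel)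

theorem piE_mem : piE ∈ KK := mem_KK_of_sem sem_piE (by decide +kernel)

theorem rE_mem : rE ∈ KK := mem_KK_of_sem sem_rE (by decide +kernel)

theorem hE_mul_tE : hE * tE = piE * hE :=
  mul_eq_of_twine matH_ok sem_tE sem_piE (by decide +kernel) (by decide +kernel) (by decide +kernel)

theorem cE_mul_tE : cE * tE = tE * cE :=
  mul_eq_of_twine matC_ok sem_tE sem_tE (by decide +kernel) (by decide +kernel) (by decide +kernel)

theorem tE_mul_self : tE * tE = 1 :=
  mul_eq_of_test sem_tE sem_tE sem_one (by decide +kernel) (by decide +kernel)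

theorem rE_mul_self : rE * rE = tE :=
  mul_eq_of_test sem_rE sem_rE sem_tE (by decide +kernel) (by decide +kernel)

theorem tE_ne_one : tE ≠ 1 := by
  intro h
  have e := sem_tE (toVec ((List.range 24).map fun i : ℕ => if i = 2 then (8 : ℤ) else 0))
    (leechOk_spec (by decide +kernel)) 2 (by norm_num)
  rw [h, one_act] at e
  revert e
  decide +kernel

theorem orderOf_tE : orderOf (⟨tE, tE_mem⟩ : ↥KK) = 2 := by
  have : Fact (Nat.Prime 2) := ⟨Nat.prime_two⟩
  refine orderOf_eq_prime ?_ ?_
  · exact Subtype.ext (by rw [sq]; exact tE_mul_self)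
  · exact fun h => tE_ne_one (congrArg Subtype.val h)

/-- The vector `-(u + v)` of the standard configuration. -/
def wSpor : ↥leechLattice := -(Spor.leechU + Spor.leechV)

theorem sqNorm_leechU : sqNorm ((Spor.leechU : ↥leechLattice) : V) = 32 := by
  show sqNorm Spor.vecU = 32
  decide +kernel

theorem sqNorm_wSpor : sqNorm (wSpor : V) = 32 := by
  show sqNorm (-(Spor.vecU + Spor.vecV)) = 32
  decide +kernel

theorem dot_leechU_wSpor : dotInt ((Spor.leechU : ↥leechLattice) : V) (wSpor : V) = -8 := by
  show dotInt Spor.vecU (-(Spor.vecU + Spor.vecV)) = -8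
  decide +kernel

/-- The group is a copy of the McLaughlin group. -/
theorem nonempty_equiv : Nonempty (↥KK ≃* ↥Spor.McL) := by
  obtain ⟨g, -, e1, e2⟩ := exists_act_pair (IsLeech.coe aL) sqNorm_aL (IsLeech.coe bL) sqNorm_bL
    (IsLeech.coe Spor.leechU) sqNorm_leechU (IsLeech.coe wSpor) sqNorm_wSpor dot_aL_bL
    dot_leechU_wSpor (Or.inl rfl)
  have e := stabPairEquiv g (smul_eq_of_act e1) (smul_eq_of_act e2)
  have key : ∀ x : ↥Co0, x • Spor.leechU = Spor.leechU →
      (x • wSpor = wSpor ↔ x • Spor.leechV = Spor.leechV) := fun x hu => by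
    rw [wSpor, co0_smul_neg, neg_inj, co0_smul_add, hu, add_right_inj]
  refine ⟨MulEquiv.trans e
    { toFun := fun x => ⟨(x.1 : Equiv.Perm ↥leechLattice),
        ⟨x.1.2, (key x.1 x.2.1).1 x.2.2⟩, x.2.1⟩
      invFun := fun y => ⟨⟨y.1, y.2.1.1⟩, y.2.2, (key ⟨y.1, y.2.1.1⟩ y.2.2).2 y.2.1.2⟩
      left_inv := fun _ => rfl
      right_inv := fun _ => rfl
      map_mul' := fun _ _ => rfl }⟩

end Cfsg.Agent.H41.McL
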