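import Cfsg.Agent.H41.McL.StabCount

/-!
The crosses reached from the standard one by the centraliser of the involution: at most fifteen.
-/

set_option autoImplicit false
set_option maxRecDepth 20000

namespace Cfsg.Agent.H41.McL

open Finset Cfsg.Agent.H14 Cfsg.Agent.H15

/-- Unpack 24 five-bit digits. -/
def unp5 (P : ℕ) : List ℤ := (List.range 24).map fun i => (((P >>> (5 * i)) % 32 : ℕ) : ℤ) - 16

/-- The sum of the selected vectors. -/
def selSum : List (List ℤ) → ℕ → List ℤ
  | [], _ => List.replicate 24 0
  | g :: gs, S => List.zipWith (· + ·) (if S % 2 = 1 then g else List.replicate 24 0)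
      (selSum gs (S / 2))

/-- The combination with integer coefficients. -/
def intSum : List (List ℤ) → List ℤ → GolayPt → ℤ
  | g :: gs, n :: ns => n • toVec g + intSum gs ns
  | _, _ => 0

theorem selSum_length : ∀ (G : List (List ℤ)), (∀ g ∈ G, g.length = 24) → ∀ S, (selSum G S).length = 24
  | [], _, _ => by simp [selSum]
  | g :: gs, h, S => by
    have h1 := h g List.mem_cons_self
    have h2 := selSum_length gs (fun x hx => h x (List.mem_cons_of_mem _ hx)) (S / 2)
    simp only [selSum, List.length_zipWith, h2]
    split <;> simp [h1]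

theorem toVec_zipWith {x y : List ℤ} (hx : x.length = 24) (hy : y.length = 24) :
    toVec (List.zipWith (· + ·) x y) = toVec x + toVec y := by
  funext p
  have := H15.idx_lt p
  simp only [toVec, Pi.add_apply]
  rw [List.getD_eq_getElem _ _ (by simp [hx, hy, this]),
    List.getD_eq_getElem _ _ (by omega), List.getD_eq_getElem _ _ (by omega), List.getElem_zipWith]

theorem toVec_replicate_zero : toVec (List.replicate 24 (0 : ℤ)) = 0 := by
  have h : ∀ p : GolayPt, toVec (List.replicate 24 (0 : ℤ)) p = 0 := by decide +kernel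
  exact funext h

theorem exists_selSum : ∀ (G : List (List ℤ)), (∀ g ∈ G, g.length = 24 ∧ IsLeech (toVec g)) →
    ∀ ns : List ℤ, ns.length = G.length →
      ∃ S < 2 ^ G.length, ∃ z, IsLeech z ∧ intSum G ns - toVec (selSum G S) = 2 • z
  | [], _, ns, _ => ⟨0, by simp, 0, isLeech_zero, by rw [selSum, toVec_replicate_zero]; simp [intSum]⟩
  | g :: gs, h, [], hl => absurd hl (by simp)
  | g :: gs, h, n :: ns, hl => by
    have hg := h g List.mem_cons_self
    have hgs := fun x hx => h x (List.mem_cons_of_mem g hx)
    obtain ⟨S, hS, z, hz, e⟩ := exists_selSum gs hgs ns (by simpa using hl)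
    have hlen := selSum_length gs (fun x hx => (hgs x hx).1)
    have hzs : IsLeech (z + (n / 2) • toVec g) := by
      refine hz.add ?_
      rw [← mem_leechLattice_iff]
      exact zsmul_mem (mem_leechLattice_iff.2 hg.2) _
    rcases Int.emod_two_eq_zero_or_one n with hn | hn
    · refine ⟨2 * S, by rw [List.length_cons, pow_succ]; omega, _, hzs, ?_⟩
      have e2 : toVec (selSum (g :: gs) (2 * S)) = toVec (selSum gs S) := by
        simp only [selSum, Nat.mul_mod_right, Nat.mul_div_cancel_left S (by norm_num : 0 < 2),
          if_neg (by norm_num : ¬(0 : ℕ) = 1)]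
        rw [toVec_zipWith (by simp) (hlen S), toVec_replicate_zero, zero_add]
      rw [e2, intSum, add_sub_assoc, e, nsmul_add, add_comm, ← natCast_zsmul ((n / 2) • toVec g),
        smul_smul]
      congr 2
      push_cast
      omega
    · refine ⟨2 * S + 1, by rw [List.length_cons, pow_succ]; omega, _, hzs, ?_⟩
      have e2 : toVec (selSum (g :: gs) (2 * S + 1)) = toVec g + toVec (selSum gs S) := by
        simp only [selSum, if_pos (show (2 * S + 1) % 2 = 1 by omega),
          show (2 * S + 1) / 2 = S by omega]
        rw [toVec_zipWith hg.1 (hlen S)]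
      rw [e2, intSum, show n • toVec g + intSum gs ns - (toVec g + toVec (selSum gs S)) =
        (n - 1) • toVec g + (intSum gs ns - toVec (selSum gs S)) by rw [sub_smul, one_smul]; abel, e,
        nsmul_add, add_comm, ← natCast_zsmul ((n / 2) • toVec g), smul_smul]
      congr 2
      push_cast
      omega

/-- The test that two lists are congruent modulo twice the lattice. -/
def congTest (r y : List ℤ) : Bool :=
  r.length == 24 && y.length == 24 &&
    (List.range 24).all (fun i => (r.getD i 0 - y.getD i 0) % 2 == 0) &&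
    leechOk ((List.range 24).map fun i => (r.getD i 0 - y.getD i 0) / 2)

theorem congTest_spec {r y : List ℤ} (h : congTest r y = true) :
    ∃ z, IsLeech z ∧ toVec r - toVec y = 2 • z := by
  simp only [congTest, Bool.and_eq_true, List.all_eq_true, List.mem_range, beq_iff_eq] at h
  refine ⟨_, leechOk_spec h.2, funext fun p => ?_⟩
  have hp := H15.idx_lt p
  simp only [Pi.sub_apply, Pi.smul_apply, toVec]
  rw [getD_map_of_lt (e := 0) _ (by simpa using hp),
    List.getD_eq_getElem (List.range 24) _ (by simpa using hp), List.getElem_range, two_nsmul]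
  have := h.1.2 _ hp
  omega

/-- The squared length of a list. -/
def sqList (y : List ℤ) : ℤ := (List.range 24).foldr (fun i acc => y.getD i 0 * y.getD i 0 + acc) 0

theorem sqNorm_toVec (y : List ℤ) : sqNorm (toVec y) = sqList y := by
  have key : ∀ n, (List.range n).foldr (fun i acc => y.getD i 0 * y.getD i 0 + acc) 0 =
      ∑ i ∈ Finset.range n, y.getD i 0 * y.getD i 0 := by
    intro n
    induction n with
    | zero => simp
    | succ n ih =>
      rw [List.range_succ, List.foldr_append, Finset.sum_range_succ, ← ih]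
      have : ∀ (L : List ℕ) (a : ℤ), L.foldr (fun i acc => y.getD i 0 * y.getD i 0 + acc) a =
          L.foldr (fun i acc => y.getD i 0 * y.getD i 0 + acc) 0 + a := by
        intro L a
        induction L with
        | nil => simp
        | cons b L ihL => simp only [List.foldr_cons, ihL]; ring
      simp only [List.foldr_cons, List.foldr_nil, add_zero]
      rw [this]
  rw [sqList, key, ← sum24 (fun i => y.getD i 0 * y.getD i 0)]
  exact Finset.sum_congr rfl fun p _ => sq _

/-- The vector `a`, as a list. -/
def aList : List ℤ := unpack Data.pA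

/-- The test of one class. -/
def clsTest (S : ℕ) : Bool :=
  let r := selSum Data.latBase S
  let c := Data.crossCert.getD S (9, 0)
  let y := unp5 c.2
  leechOk y &&
    ((c.1 == 0 && congTest r y && decide (sqList y ≤ 48)) ||
      (c.1 == 1 && congTest r (Data.crossReps.getD (Data.crossIdx.getD S 0) []) &&
        decide (Data.crossIdx.getD S 0 < 15)) ||
      (c.1 == 2 && congTest (List.zipWith (· + ·) r aList) y && decide (sqList y = 64)))

theorem latBase_ok : ∀ g ∈ Data.latBase, g.length = 24 ∧ IsLeech (toVec g) := by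
  have h : (Data.latBase.all fun g => g.length == 24 && leechOk g) = true := by decide +kernel
  intro g hg
  have := List.all_eq_true.1 h g hg
  rw [Bool.and_eq_true, beq_iff_eq] at this
  exact ⟨this.1, leechOk_spec this.2⟩

/-- Vectors supported on the second octad are combinations of the nine generators. -/
theorem exists_intSum {w : GolayPt → ℤ} (hw : IsLeech w) (hsupp : ∀ p, p ∉ octB → w p = 0) :
    ∃ ns : List ℤ, ns.length = Data.latBase.length ∧ intSum Data.latBase ns = w := by
  have hev : ∀ i, w i % 2 = 0 := by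
    obtain ⟨m, a, hxa, -, -⟩ := hw
    have h0 : w (pnt 0) = 0 := hsupp _ (by rw [mem_octB, idx_pnt (by norm_num)]; decide +kernel)
    intro i
    have := hxa i; have := hxa (pnt 0)
    omega
  have hpar := par_half_mem hw hev
  have hsum : (∑ i, w i) % 8 = 0 := by
    obtain ⟨m, a, hxa, -, hs⟩ := hw
    have := hxa (pnt 0); have := hev (pnt 0)
    omega
  let k : ℤ := (w (pnt 19) / 2) % 2
  have hcases : ∀ p ∈ octB, (w p / 2) % 2 = k := by
    by_cases hz : par (fun i => w i / 2) = 0
    · have : ∀ p, (w p / 2) % 2 = 0 := fun p => by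
        have := congrFun hz p
        rw [par_apply, Pi.zero_apply, ZMod.intCast_zmod_eq_zero_iff_dvd] at this
        omega
      intro p _
      rw [this p]
      exact (this _).symm
    · have h8 := H9.golayCode_min_weight hpar hz
      have hsub : (univ.filter fun p => par (fun i => w i / 2) p ≠ 0) ⊆ octB := by
        intro p hp
        by_contra hne
        rw [Finset.mem_filter, par_apply, hsupp p hne] at hp
        simp at hp
      have hcard : octB.card = 8 := by decide +kernel
      have heq := Finset.eq_of_subset_of_card_le hsub (by rw [hcard]; exact h8)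
      have : ∀ p ∈ octB, (w p / 2) % 2 = 1 := fun p hp => by
        rw [← heq, Finset.mem_filter, par_apply, Ne, ZMod.intCast_zmod_eq_zero_iff_dvd] at hp
        omega
      intro p hp
      rw [this p hp]
      exact (this _ (by rw [mem_octB, idx_pnt (by norm_num)]; decide +kernel)).symm
  let z : GolayPt → ℤ := fun p => if p ∈ octB then (w p - 2 * k) / 4 else 0
  have hw4 : ∀ p, w p = (if p ∈ octB then 2 * k else 0) + 4 * z p := by
    intro p
    by_cases hp : p ∈ octB
    · simp only [z, if_pos hp]
      have := hcases p hp; have := hev p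
      omega
    · simp [z, if_neg hp, hsupp p hp]
  let s : ℤ := z (pnt 2) + z (pnt 4) + z (pnt 8) + z (pnt 9) + z (pnt 13) + z (pnt 14) + z (pnt 16) +
    z (pnt 19)
  have hocts : octB = {pnt 2, pnt 4, pnt 8, pnt 9, pnt 13, pnt 14, pnt 16, pnt 19} := by
    decide +kernel
  have hs : s % 2 = 0 := by
    have e : (∑ i, w i) = 16 * k + 4 * s := by
      rw [← Finset.sum_subset (Finset.subset_univ octB) fun p _ hp => hsupp p hp, hocts]
      rw [Finset.sum_insert (by decide +kernel), Finset.sum_insert (by decide +kernel),
        Finset.sum_insert (by decide +kernel), Finset.sum_insert (by decide +kernel),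
        Finset.sum_insert (by decide +kernel), Finset.sum_insert (by decide +kernel),
        Finset.sum_insert (by decide +kernel), Finset.sum_singleton]
      have hin : ∀ p ∈ octB, w p = 2 * k + 4 * z p := fun p hp => by rw [hw4 p, if_pos hp]
      rw [hocts] at hin
      rw [hin (pnt 2) (by simp), hin (pnt 4) (by simp), hin (pnt 8) (by simp), hin (pnt 9) (by simp),
        hin (pnt 13) (by simp), hin (pnt 14) (by simp), hin (pnt 16) (by simp), hin (pnt 19) (by simp)]
      simp only [s]
      ring
    omega
  refine ⟨[k, z (pnt 2), z (pnt 4), z (pnt 8), z (pnt 9), z (pnt 13), z (pnt 14), z (pnt 16), s / 2],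
    rfl, ?_⟩
  funext p
  obtain ⟨i, hi, rfl⟩ : ∃ i < 24, pnt i = p := ⟨H15.idx p, H15.idx_lt p, pnt_idx p⟩
  have hout : pnt i ∉ octB → z (pnt i) = 0 := fun h => if_neg h
  rw [hw4 (pnt i)]
  simp only [Data.latBase, intSum, Pi.add_apply, Pi.smul_apply, smul_eq_mul, Pi.zero_apply, toVec,
    idx_pnt hi, mem_octB]
  have : Data.o2 = 615188 := rfl
  interval_cases i <;>
    simp [this, Nat.testBit, List.getD] at * <;>
    first
      | omega
      | (rw [hout (by rw [mem_octB, idx_pnt (by norm_num)]; decide +kernel)])

/-- The starting vector. -/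
def e0 : GolayPt → ℤ := eight (pnt 19)

set_option maxHeartbeats 1000000 in
theorem exists_cross_idx {g : ↥Co0} (hg : g ∈ CC) :
    ∃ j : Fin 15, ∃ z, IsLeech z ∧
      act g e0 - toVec (Data.crossReps.getD j.1 []) = 2 • z := by
  have he0 : IsLeech e0 := isLeech_eight _
  set w := act g e0 with hw
  have hwL : IsLeech w := isLeech_act g he0
  have hwn : sqNorm w = 64 := by rw [hw, sqNorm_act g he0]; exact sqNorm_eight _
  have hcomm : g * tE = tE * g := (Subgroup.mem_centralizer_iff.1 hg.2 tE rfl).symm
  have htw : act tE w = -w := by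
    rw [hw, ← mul_act, ← hcomm, mul_act, e0, act_tE_eight,
      if_pos (by rw [idx_pnt (by norm_num)]; decide +kernel), act_neg g (isLeech_eight _)]
  have hsupp : ∀ p, p ∉ octB → w p = 0 := by
    intro p hp
    have h := sem_tE w hwL (H15.idx p) (H15.idx_lt p)
    have hid : ∀ i < 24, Data.spT.im i = i := by decide +kernel
    rw [hid _ (H15.idx_lt p), pnt_idx, htw, SPerm.sgn, if_neg (by
      rw [show Data.spT.neg = Data.o2 from rfl]; exact fun h => hp (mem_octB.2 h))] at h
    simp only [Pi.neg_apply, one_mul] at h
    omega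
  -- the short vector congruent to `w + a`
  let q : GolayPt → ℤ := eight (pnt 23)
  have hq : IsLeech q := isLeech_eight _
  obtain ⟨d, hd, hde⟩ : ∃ d, IsLeech d ∧ e0 - q = 2 • d := by
    refine ⟨_, four_add_four_mem (pnt 19) (pnt 23) (by decide +kernel), ?_⟩
    decide +kernel
  have hga : act g (aL : V) = (aL : V) := act_of_smul (MulAction.mem_stabilizer_iff.1 hg.1.1)
  let u : GolayPt → ℤ := act g ((aL : V) + q)
  have huL : IsLeech u := isLeech_act g ((IsLeech.coe aL).add hq)
  have hun : sqNorm u = 32 := by
    rw [show u = act g ((aL : V) + q) from rfl, sqNorm_act g ((IsLeech.coe aL).add hq)]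
    show sqNorm ((aL : V) + eight (pnt 23)) = 32
    decide +kernel
  have hwu : (w + (aL : V)) - u = 2 • act g d := by
    show (w + (aL : V)) - act g ((aL : V) + q) = _
    rw [act_add g (IsLeech.coe aL) hq, hga, hw, ← act_two_smul g hd, ← hde, act_sub g he0 hq]
    abel
  obtain ⟨ns, hns, hwe⟩ := exists_intSum hwL hsupp
  obtain ⟨S, hS, z, hz, hSe⟩ := exists_selSum _ latBase_ok ns hns
  rw [hwe] at hSe
  have hall : allBlocks clsTest 512 = true := by decide +kernel
  have h := allBlocks_eq_true hall (show S < 512 from lt_of_lt_of_le hS (by decide +kernel))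
  simp only [clsTest, Bool.and_eq_true, Bool.or_eq_true, beq_iff_eq, decide_eq_true_eq] at h
  obtain ⟨hyL, h⟩ := h
  have hy := leechOk_spec hyL
  rcases h with (⟨⟨-, hc⟩, hn⟩ | ⟨⟨-, hc⟩, hj⟩) | ⟨⟨-, hc⟩, hn⟩
  · exfalso
    obtain ⟨z', hz', e'⟩ := congTest_spec hc
    have e := (show w - toVec (unp5 (Data.crossCert.getD S (9, 0)).2) = 2 • (z + z') by
      rw [nsmul_add, ← hSe, ← e']; abel)
    rw [← sqNorm_toVec] at hn
    rcases congr_two_cases hwL hy (hz.add hz') e hwn.le (by omega) with h1 | h1 | ⟨-, h1, -⟩
    · rw [h1, hwn] at hn; omega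
    · rw [h1, sqNorm_neg, hwn] at hn; omega
    · omega
  · obtain ⟨z', hz', e'⟩ := congTest_spec hc
    exact ⟨⟨_, hj⟩, z + z', hz.add hz', by rw [nsmul_add, ← hSe, ← e']; abel⟩
  · exfalso
    obtain ⟨z', hz', e'⟩ := congTest_spec hc
    rw [toVec_zipWith (selSum_length _ (fun g hg => (latBase_ok g hg).1) S) (by decide +kernel),
      show toVec aList = (aL : V) by rw [aList, toVec_unpack]; rfl] at e'
    have hzz : IsLeech (z + z' - act g d) := (hz.add hz').sub (isLeech_act g hd)
    have e : u - toVec (unp5 (Data.crossCert.getD S (9, 0)).2) = 2 • (z + z' - act g d) := by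
      rw [nsmul_sub, nsmul_add, ← hSe, ← e', ← hwu]; abel
    rw [← sqNorm_toVec] at hn
    rcases congr_two_cases huL hy hzz e (by omega) hn.le with h1 | h1 | ⟨h1, -, -⟩
    · rw [h1, hun] at hn; omega
    · rw [h1, sqNorm_neg, hun] at hn; omega
    · omega

/-- The centraliser has order at most `40320`. -/
theorem card_CC_le : Nat.card ↥CC ≤ 40320 := by
  classical
  choose j z hz ej using fun g : ↥CC => exists_cross_idx g.2
  have key : ∀ g h : ↥CC, j g = j h → (h.1⁻¹ * g.1) ∈ crossStab := by
    intro g h e
    have he0 : IsLeech e0 := isLeech_eight _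
    have e1 : act g.1 e0 - act h.1 e0 = 2 • (z g - z h) := by
      rw [nsmul_sub, ← ej g, ← ej h, e]; abel
    have e2 : e0 - act (h.1⁻¹ * g.1) e0 = 2 • (-act h.1⁻¹ (z g - z h)) := by
      rw [smul_neg, ← act_two_smul _ ((hz g).sub (hz h)), ← e1,
        act_sub _ (isLeech_act _ he0) (isLeech_act _ he0), inv_act_act, ← mul_act]
      abel
    have hmem : act (h.1⁻¹ * g.1) e0 ∈ cross e0 :=
      mem_cross_iff.2 ⟨isLeech_act _ he0, sqNorm_act _ he0, _,
        (isLeech_act _ ((hz g).sub (hz h))).neg, e2⟩
    show act (h.1⁻¹ * g.1) '' stdCross = stdCross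
    rw [← cross_eight (pnt 19), ← cross_act _ (isLeech_eight _)]
    exact cross_eq_of_mem hmem
  let CX : Subgroup ↥CC := (CC ⊓ crossStab).subgroupOf CC
  have hidx : CX.index ≤ 15 := by
    let f : ↥CC ⧸ CX → Fin 15 := fun q => j q.out
    have hf : Function.Injective f := by
      intro q r e
      have h1 := key _ _ e
      rw [← QuotientGroup.out_eq' q, ← QuotientGroup.out_eq' r, QuotientGroup.eq]
      have h2 := inv_mem h1
      rw [mul_inv_rev, inv_inv] at h2
      exact Subgroup.mem_subgroupOf.2 ⟨(q.out⁻¹ * r.out).2, h2⟩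
    have := Nat.card_le_card_of_injective f hf
    rwa [Nat.card_fin, ← Subgroup.index_eq_card] at this
  have hcx : Nat.card ↥CX ≤ 2688 :=
    (Nat.card_congr (Subgroup.subgroupOfEquivOfLe inf_le_left).toEquiv).trans_le card_CC_cross_le
  rw [← CX.card_mul_index]
  calc _ ≤ 2688 * 15 := Nat.mul_le_mul hcx hidx
    _ = 40320 := by norm_num

end Cfsg.Agent.H41.McL
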