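import Cfsg.Agent.H41.McL.Base

/-!
The McLaughlin group has one class of involutions: a Sylow 2-subgroup lies in the monomial group and
each of its involutions is conjugate to the standard one.
-/

set_option autoImplicit false
set_option maxRecDepth 20000

namespace Cfsg.Agent.H41.McL

open Finset Cfsg.Agent.H14 Cfsg.Agent.H15

/-- The code of the `j`-th element of the Sylow subgroup. -/
def sylCode (j : ℕ) : SPerm := Data.sylList.getD j SPerm.one

/-- The code of the `k`-th generator. -/
def genCode (k : ℕ) : SPerm := Data.sylGens.getD k SPerm.one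

/-- The product index. -/
def sylMul (k j : ℕ) : ℕ := (Data.sylNext.getD k []).getD j 0

theorem sylCode_ok {j : ℕ} (hj : j < 128) :
    (sylCode j).ok = true ∧ inKTest (sylCode j) = true := by
  have h : ((List.range 128).all fun j => (sylCode j).ok && inKTest (sylCode j)) = true := by
    decide +kernel
  simpa [Bool.and_eq_true] using List.all_eq_true.1 h j (List.mem_range.2 hj)

theorem genCode_ok {k : ℕ} (hk : k < Data.sylGens.length) :
    (genCode k).ok = true ∧ inKTest (genCode k) = true := by
  have h : ((List.range Data.sylGens.length).all fun k => (genCode k).ok && inKTest (genCode k)) =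
      true := by
    decide +kernel
  simpa [Bool.and_eq_true] using List.all_eq_true.1 h k (List.mem_range.2 hk)

/-- The `j`-th element of the Sylow subgroup. -/
noncomputable def sylElt (j : Fin 128) : ↥KK :=
  ⟨sElt (sylCode j), mem_KK_of_sem (sem_sElt (sylCode_ok j.2).1) (sylCode_ok j.2).2⟩

/-- The `k`-th generator. -/
noncomputable def sylGen (k : Fin Data.sylGens.length) : ↥KK :=
  ⟨sElt (genCode k), mem_KK_of_sem (sem_sElt (genCode_ok k.2).1) (genCode_ok k.2).2⟩

theorem permTest_of_inK {e : SPerm} (h : inKTest e = true) : permTest e.img = true := by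
  simp only [inKTest, Bool.and_eq_true] at h
  exact h.1.1

theorem sylElt_zero : sylElt 0 = 1 :=
  Subtype.ext (sem_unique (by decide +kernel) (sem_sElt (sylCode_ok (j := 0) (by norm_num)).1)
    (show Sem 1 (sylCode 0) by
      rw [show sylCode 0 = SPerm.one by decide +kernel]; exact sem_one))

theorem sylMul_spec (k : Fin Data.sylGens.length) (j : Fin 128) :
    ∃ i : Fin 128, sylGen k * sylElt j = sylElt i := by
  have h : ((List.range Data.sylGens.length).all fun k => (List.range 128).all fun j =>
      decide (sylMul k j < 128) && compTest (genCode k) (sylCode j) (sylCode (sylMul k j))) = true := by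
    decide +kernel
  have := List.all_eq_true.1 (List.all_eq_true.1 h k (List.mem_range.2 k.2)) j (List.mem_range.2 j.2)
  rw [Bool.and_eq_true, decide_eq_true_eq] at this
  exact ⟨⟨_, this.1⟩, Subtype.ext (mul_eq_of_test (sem_sElt (genCode_ok k.2).1)
    (sem_sElt (sylCode_ok j.2).1) (sem_sElt (sylCode_ok this.1).1)
    (permTest_of_inK (sylCode_ok this.1).2) this.2)⟩

/-- The Sylow subgroup. -/
noncomputable def sylSub : Subgroup ↥KK := Subgroup.closure (Set.range sylGen)

instance finite_KK : Finite ↥KK := Subtype.finite

theorem mem_sylSub_iff {x : ↥KK} : x ∈ sylSub ↔ ∃ j, sylElt j = x := by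
  constructor
  · intro hx
    rw [sylSub, ← Subgroup.mem_toSubmonoid, Subgroup.closure_toSubmonoid_of_finite] at hx
    induction hx using Submonoid.closure_induction_left with
    | one => exact ⟨0, sylElt_zero⟩
    | mul_left g hg y _ ih =>
      obtain ⟨k, rfl⟩ := hg
      obtain ⟨j, rfl⟩ := ih
      obtain ⟨i, hi⟩ := sylMul_spec k j
      exact ⟨i, hi.symm⟩
  · rintro ⟨j, rfl⟩
    have key : ∀ n, ∀ hn : n < 128, sylElt ⟨n, hn⟩ ∈ sylSub := by
      intro n
      induction n using Nat.strong_induction_on with
      | _ n ih =>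
        intro hn
        by_cases h0 : n = 0
        · subst h0
          rw [show (⟨0, hn⟩ : Fin 128) = 0 from rfl, sylElt_zero]
          exact one_mem _
        have h : ((List.range 128).all fun n => decide (n = 0) ||
            (decide ((Data.sylTree.getD n (0, 0)).1 < n) &&
              decide ((Data.sylTree.getD n (0, 0)).2 < Data.sylGens.length) &&
              compTest (genCode (Data.sylTree.getD n (0, 0)).2)
                (sylCode (Data.sylTree.getD n (0, 0)).1) (sylCode n))) = true := by
          decide +kernel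
        have := List.all_eq_true.1 h n (List.mem_range.2 hn)
        simp only [Bool.or_eq_true, decide_eq_true_eq, Bool.and_eq_true, h0, false_or] at this
        obtain ⟨⟨h1, h2⟩, h3⟩ := this
        have e : sylElt ⟨n, hn⟩ = sylGen ⟨_, h2⟩ * sylElt ⟨_, h1.trans hn⟩ :=
          Subtype.ext (mul_eq_of_test (sem_sElt (genCode_ok h2).1)
            (sem_sElt (sylCode_ok (h1.trans hn)).1) (sem_sElt (sylCode_ok hn).1)
            (permTest_of_inK (sylCode_ok hn).2) h3).symm
        rw [e]
        exact mul_mem (Subgroup.subset_closure ⟨_, rfl⟩) (ih _ h1 _)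
    exact key j.1 j.2

/-- A lattice vector with 24 distinct positive coordinates. -/
def sepVec : List ℤ := (List.range 24).map fun i : ℕ => 8 * ((i : ℤ) + 1)

/-- The image of the separating vector, read at the positions. -/
def sepImg (e : SPerm) : List ℤ :=
  (List.range 24).map fun k =>
    (List.range 24).foldr (fun i acc => if e.im i = k then e.sgn k * sepVec.getD i 0 else acc) 0

theorem sylElt_injective : Function.Injective sylElt := by
  intro i j e
  by_contra hne
  have h : ((List.range 128).all fun i => (List.range i).all fun j =>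
      decide ((List.range 24).any fun k => decide ((sepImg (sylCode i)).getD k 0 ≠
        (sepImg (sylCode j)).getD k 0))) = true := by
    decide +kernel
  have hcov : ∀ i : Fin 128, ∀ k < 24, act (sylElt i).1 (toVec sepVec) (pnt k) =
      (sepImg (sylCode i)).getD k 0 := by
    intro i k hk
    have hc : ((List.range 128).all fun i => (List.range 24).all fun q =>
        decide ((sepImg (sylCode i)).getD ((sylCode i).im q) 0 =
          (sylCode i).sgn ((sylCode i).im q) * sepVec.getD q 0)) = true := by
      decide +kernel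
    obtain ⟨p, hp⟩ := (ptPerm (sylCode i).img).surjective (pnt k)
    rw [ptPerm_apply (permTest_of_inK (sylCode_ok i.2).2)] at hp
    have hq := H15.idx_lt p
    have e1 : (sylCode i).im (H15.idx p) = k := by
      have := congrArg H15.idx hp
      rwa [ptMap, idx_pnt ((permTest_spec (permTest_of_inK (sylCode_ok i.2).2)).1 _ hq),
        idx_pnt hk] at this
    have hx : IsLeech (toVec sepVec) := leechOk_spec (by decide +kernel)
    have e2 := sem_sElt (sylCode_ok i.2).1 _ hx _ hq
    rw [e1] at e2
    show act (sElt (sylCode i)) _ _ = _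
    rw [e2, pnt_idx]
    have := List.all_eq_true.1 (List.all_eq_true.1 hc i (List.mem_range.2 i.2)) _
      (List.mem_range.2 hq)
    rw [decide_eq_true_eq, e1] at this
    exact this.symm
  rcases Nat.lt_or_gt_of_ne (fun h' => hne (Fin.ext h')) with hlt | hlt
  · have := List.all_eq_true.1 (List.all_eq_true.1 h j (List.mem_range.2 j.2)) i
      (List.mem_range.2 hlt)
    simp only [decide_eq_true_eq, List.any_eq_true, List.mem_range] at this
    obtain ⟨k, hk, hk'⟩ := this
    exact hk' (by rw [← hcov j k hk, ← hcov i k hk, e])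
  · have := List.all_eq_true.1 (List.all_eq_true.1 h i (List.mem_range.2 i.2)) j
      (List.mem_range.2 hlt)
    simp only [decide_eq_true_eq, List.any_eq_true, List.mem_range] at this
    obtain ⟨k, hk, hk'⟩ := this
    exact hk' (by rw [← hcov j k hk, ← hcov i k hk, e])

theorem card_sylSub : Nat.card ↥sylSub = 128 := by
  have h : (sylSub : Set ↥KK) = Set.range sylElt := Set.ext fun x => mem_sylSub_iff
  rw [← SetLike.coe_sort_coe, h, Nat.card_range_of_injective sylElt_injective, Nat.card_fin]

theorem factorization_card_KK : (Nat.card ↥KK).factorization 2 = 7 := by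
  rw [card_KK, Nat.factorization_def _ Nat.prime_two,
    show (898128000 : ℕ) = 2 ^ 7 * 7016625 by norm_num]
  have : Fact (Nat.Prime 2) := ⟨Nat.prime_two⟩
  rw [padicValNat.mul (by norm_num) (by norm_num), padicValNat.prime_pow,
    padicValNat.eq_zero_of_not_dvd (by norm_num)]

/-- The standard involution, in the group. -/
noncomputable def tK : ↥KK := ⟨tE, tE_mem⟩

theorem isConj_pi : IsConj tK (⟨piE, piE_mem⟩ : ↥KK) :=
  isConj_iff.2 ⟨⟨hE, hE_mem⟩, Subtype.ext (by
    show hE * tE * hE⁻¹ = piE
    rw [hE_mul_tE, mul_inv_cancel_right])⟩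

/-- The code of an identity-like test: squares to one. -/
def involTest (e : SPerm) : Bool := compTest e e SPerm.one

/-- The test of the conjugation table. -/
def conjTest (r : ℕ × Bool × SPerm) : Bool :=
  decide (r.1 < 128) && r.2.2.ok && inKTest r.2.2 &&
    (let s0 := if r.2.1 then Data.spPi else Data.spT
     let p := r.2.2.comp s0
     decide (compTest r.2.2 s0 p) && decide (compTest (sylCode r.1) r.2.2 p) && permTest p.img)

theorem invol_sylElt_conj (j : Fin 128) (hj : orderOf (sylElt j) = 2) : IsConj tK (sylElt j) := by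
  have htab : (Data.sylConj.all conjTest) = true := by decide +kernel
  have hcov : ((List.range 128).all fun j => decide (j = 0) ||
      Data.sylConj.any (fun r => r.1 == j) ||
      !(decide ((sylCode j).comp (sylCode j) = SPerm.one))) = true := by
    decide +kernel
  have hcmp : ((List.range 128).all fun j =>
      compTest (sylCode j) (sylCode j) ((sylCode j).comp (sylCode j)) &&
        (List.range 128).any fun i => decide ((sylCode j).comp (sylCode j) = sylCode i)) = true := by
    decide +kernel
  have hsq : sylElt j * sylElt j = 1 := by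
    have := pow_orderOf_eq_one (sylElt j)
    rwa [hj, pow_two] at this
  have hne : j.1 ≠ 0 := by
    intro h
    rw [show j = 0 from Fin.ext h, sylElt_zero, orderOf_one] at hj
    omega
  have h1 := List.all_eq_true.1 hcmp j.1 (List.mem_range.2 j.2)
  simp only [Bool.and_eq_true, List.any_eq_true, List.mem_range, decide_eq_true_eq] at h1
  obtain ⟨h1a, i, hi, h1c⟩ := h1
  have hone : (sylCode j).comp (sylCode j) = SPerm.one := by
    have hs := sem_mul (sem_sElt (sylCode_ok j.2).1) (sem_sElt (sylCode_ok j.2).1) h1a
    rw [h1c] at hs ⊢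
    have e : sylElt j * sylElt j = sylElt ⟨i, hi⟩ := Subtype.ext
      (sem_unique (permTest_of_inK (sylCode_ok hi).2) hs (sem_sElt (sylCode_ok hi).1))
    rw [hsq, ← sylElt_zero] at e
    have e2 := sylElt_injective e
    rw [← show sylCode 0 = SPerm.one by decide +kernel, show i = 0 from (congrArg Fin.val e2).symm]
  have h2 := List.all_eq_true.1 hcov j.1 (List.mem_range.2 j.2)
  rw [Bool.or_eq_true, Bool.or_eq_true, decide_eq_true_eq, Bool.not_eq_true',
    decide_eq_false_iff_not] at h2
  have h3 := (h2.resolve_right (not_not.2 hone)).resolve_left hne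
  rw [List.any_eq_true] at h3
  obtain ⟨⟨i, b, m⟩, hmem, hij⟩ := h3
  simp only [beq_iff_eq] at hij
  subst hij
  have h4 := List.all_eq_true.1 htab _ hmem
  simp only [conjTest, Bool.and_eq_true, decide_eq_true_eq] at h4
  obtain ⟨⟨⟨-, hmok⟩, hmK⟩, ⟨⟨hc1, hc2⟩, hp⟩⟩ := h4
  have hm := sem_sElt hmok
  let mK : ↥KK := ⟨sElt m, mem_KK_of_sem hm hmK⟩
  have main : ∀ (s : ↥KK) (es : SPerm), Sem s.1 es → compTest m es (m.comp es) = true →
      compTest (sylCode j.1) m (m.comp es) = true → permTest (m.comp es).img = true →
      IsConj s (sylElt j) := by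
    intro s es hs e1 e2 e3
    refine isConj_iff.2 ⟨mK, ?_⟩
    have : mK * s = sylElt j * mK := Subtype.ext (sem_unique e3 (sem_mul hm hs e1)
      (sem_mul (sem_sElt (sylCode_ok j.2).1) hm e2))
    rw [this, mul_inv_cancel_right]
  cases b
  · exact main tK _ sem_tE hc1 hc2 hp
  · exact isConj_pi.trans (main ⟨piE, piE_mem⟩ _ sem_piE hc1 hc2 hp)

/-- All involutions are conjugate to the standard one. -/
theorem isConj_tK (x : ↥KK) (hx : orderOf x = 2) : IsConj tK x := by
  have : Fact (Nat.Prime 2) := ⟨Nat.prime_two⟩
  let P : Sylow 2 ↥KK := Sylow.ofCard sylSub (by rw [card_sylSub, factorization_card_KK]; norm_num)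
  have hz : IsPGroup 2 ↥(Subgroup.zpowers x) :=
    IsPGroup.of_card (n := 1) (by rw [Nat.card_zpowers, hx, pow_one])
  obtain ⟨Q, hQ⟩ := hz.exists_le_sylow
  obtain ⟨g, hg⟩ := MulAction.exists_smul_eq ↥KK Q P
  have hmem : g * x * g⁻¹ ∈ sylSub := by
    have : g * x * g⁻¹ ∈ (g • Q : Sylow 2 ↥KK) := by
      rw [← SetLike.mem_coe, Sylow.coe_smul]
      exact ⟨x, hQ (Subgroup.mem_zpowers x), rfl⟩
    rw [hg] at this
    exact this
  obtain ⟨j, hj⟩ := mem_sylSub_iff.1 hmem
  have hord : orderOf (sylElt j) = 2 := by
    rw [hj, ← hx]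
    exact (MulAut.conj g).orderOf_eq x
  refine (invol_sylElt_conj j hord).trans ?_
  rw [hj]
  exact (isConj_iff.2 ⟨g, rfl⟩).symm

end Cfsg.Agent.H41.McL
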