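import Cfsg.Agent.H41.McL.Crosses
import Cfsg.Agent.H41.McL.OneClass
import Cfsg.Prelude.Def_SporadicB

/-!
The centraliser of the involution permutes eight objects: it maps onto the alternating group of
degree eight, with kernel of order two.
-/

set_option autoImplicit false
set_option maxRecDepth 20000

namespace Cfsg.Agent.H41.McL

open Finset Cfsg.Agent.H14 Cfsg.Agent.H15

/-- The mask of a set of objects. -/
def mask8 (s : Finset (Fin 8)) : ℕ := ∑ i ∈ s, 2 ^ i.val

/-- The index of the fixed vector of a four-set. -/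
def lineIdx (s : Finset (Fin 8)) : ℕ := Data.lineTab.getD (mask8 s) 0

/-- The code of the fixed vector of a four-set. -/
def lineCode (s : Finset (Fin 8)) : ℕ := Data.fixPts.getD (lineIdx s) 0

theorem lineCode_ok (s : Finset (Fin 8)) : leechOk (unpack (lineCode s)) = true := by
  revert s; decide +kernel

/-- The fixed vector of a four-set. -/
def lineVec (s : Finset (Fin 8)) : ↥leechLattice := ofCode (lineCode s) (lineCode_ok s)

theorem lineVec_eq {s s' : Finset (Fin 8)} (hs : s.card = 4) (hs' : s'.card = 4)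
    (h : lineVec s = lineVec s') : s' = s ∨ s' = sᶜ := by
  have e : lineCode s = lineCode s' := by
    have h1 := congrArg Subtype.val h
    rw [lineVec, lineVec, ofCode_val, ofCode_val] at h1
    have hb : ∀ t : Finset (Fin 8), lineCode t < 2 ^ 96 := by decide +kernel
    exact vecOf_inj (hb s) (hb s') h1
  have key : ((Finset.powersetCard 4 (univ : Finset (Fin 8))) : Finset (Finset (Fin 8))).card = 70 ∧
      ∀ t ∈ Finset.powersetCard 4 (univ : Finset (Fin 8)),
        ∀ t' ∈ Finset.powersetCard 4 (univ : Finset (Fin 8)),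
          lineCode t = lineCode t' → t' = t ∨ t' = tᶜ := by
    decide +kernel
  exact key.2 s (mem_powersetCard.2 ⟨subset_univ _, hs⟩) s'
    (mem_powersetCard.2 ⟨subset_univ _, hs'⟩) e

/-- A permutation moving every four-set to itself or its complement is trivial. -/
theorem perm_eq_one {σ : Equiv.Perm (Fin 8)}
    (h : ∀ s : Finset (Fin 8), s.card = 4 →
      s.map σ.toEmbedding = s ∨ s.map σ.toEmbedding = sᶜ) : σ = 1 := by
  refine Equiv.ext fun i => ?_
  rw [Equiv.Perm.one_apply]
  by_contra hne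
  have hne' : i ≠ σ i := fun e => hne e.symm
  have hfix : ∀ s : Finset (Fin 8), s.card = 4 → i ∈ s → σ i ∈ s → s.map σ.toEmbedding = s := by
    intro s hs hi hk
    refine (h s hs).resolve_right fun e => ?_
    have : σ i ∈ sᶜ := e ▸ Finset.mem_map_of_mem σ.toEmbedding hi
    exact Finset.mem_compl.1 this hk
  have key : ∀ a b : Fin 8, a ≠ b → ∃ l m n : Fin 8,
      ({a, b, l, m} : Finset (Fin 8)).card = 4 ∧ ({a, b, l, n} : Finset (Fin 8)).card = 4 ∧
      ({a, l, m, n} : Finset (Fin 8)).card = 4 ∧ b ≠ l ∧ b ≠ m ∧ b ≠ n ∧ a ≠ l := by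
    decide +kernel
  obtain ⟨l, m, n, h1, h2, h3, hbl, hbm, hbn, hil⟩ := key i (σ i) hne'
  have mem1 : ∀ x ∈ ({i, σ i, l, m} : Finset (Fin 8)), σ x ∈ ({i, σ i, l, m} : Finset (Fin 8)) :=
    fun x hx => by
      have e := hfix _ h1 (by simp) (by simp)
      rw [← e]; exact Finset.mem_map_of_mem σ.toEmbedding hx
  -- the image of `{i, l, m, n}` contains `σ i`
  have hcomp := (h _ h3).resolve_left fun e => by
    have : σ i ∈ ({i, l, m, n} : Finset (Fin 8)) :=
      e ▸ Finset.mem_map_of_mem σ.toEmbedding (by simp)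
    simp only [Finset.mem_insert, Finset.mem_singleton] at this
    rcases this with e' | e' | e' | e'
    exacts [hne e', hbl e', hbm e', hbn e']
  have hl : σ l ∈ ({i, l, m, n} : Finset (Fin 8))ᶜ :=
    hcomp ▸ Finset.mem_map_of_mem σ.toEmbedding (by simp)
  have hl2 := mem1 l (by simp)
  simp only [Finset.mem_compl, Finset.mem_insert, Finset.mem_singleton, not_or] at hl hl2
  rcases hl2 with e | e | e | e
  · exact hl.1 e
  · exact hil (σ.injective e).symm
  · exact hl.2.1 e
  · exact hl.2.2.1 e

/-- Pairs of an element and a permutation compatible on the fixed vectors. -/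
def compat : Subgroup (↥Co0 × Equiv.Perm (Fin 8)) where
  carrier := {x | ∀ s : Finset (Fin 8), s.card = 4 →
    x.1 • lineVec s = lineVec (s.map x.2.toEmbedding)}
  one_mem' := by
    intro s _
    simp [Finset.map_refl, show (1 : Equiv.Perm (Fin 8)).toEmbedding = Function.Embedding.refl _ from rfl]
  mul_mem' := by
    intro x y hx hy s hs
    show (x.1 * y.1) • lineVec s = _
    rw [mul_smul, hy s hs, hx _ (by rw [Finset.card_map]; exact hs), Finset.map_map]
    rfl
  inv_mem' := by
    intro x hx s hs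
    show x.1⁻¹ • lineVec s = _
    have h := hx (s.map (x.2⁻¹).toEmbedding) (by rw [Finset.card_map]; exact hs)
    rw [inv_smul_eq_iff]
    rw [Finset.map_map, show ((x.2⁻¹).toEmbedding.trans x.2.toEmbedding) =
      Function.Embedding.refl _ from Function.Embedding.ext fun i => by simp, Finset.map_refl] at h
    exact h.symm

/-- The monomial generators of the centraliser. -/
noncomputable def cenElt (k : ℕ) : ↥Co0 :=
  if k = 0 then sElt (Data.cenGens.getD 0 SPerm.one)
  else if k = 1 then sElt (Data.cenGens.getD 1 SPerm.one)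
  else cE

/-- The permutation of the `k`-th generator, as a list. -/
def permList (k : ℕ) : List ℕ := Data.cenPerm.getD k []

/-- The permutation of the `k`-th generator. -/
def cenPerm8 (k : Fin 3) : Equiv.Perm (Fin 8) where
  toFun i := Fin.ofNat 8 ((permList k).getD i.val 0)
  invFun j := Fin.ofNat 8 ((permList k).idxOf j.val)
  left_inv := by revert k; decide +kernel
  right_inv := by revert k; decide +kernel

/-- The image of a set of objects, through the list. -/
def listMap (l : List ℕ) (s : Finset (Fin 8)) : Finset (Fin 8) :=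
  s.image fun i => Fin.ofNat 8 (l.getD i.val 0)

theorem map_cenPerm8 (k : Fin 3) (s : Finset (Fin 8)) :
    s.map (cenPerm8 k).toEmbedding = listMap (permList k) s := by
  rw [Finset.map_eq_image]
  rfl

theorem fin3_cases : ∀ k : Fin 3, k = 0 ∨ k = 1 ∨ k = 2 := by decide

theorem cenGens_ok : ∀ k < 2, (Data.cenGens.getD k SPerm.one).ok = true ∧
    inKTest (Data.cenGens.getD k SPerm.one) = true := by
  decide +kernel

theorem cenElt_zero : cenElt (0 : Fin 3).val = sElt (Data.cenGens.getD 0 SPerm.one) := by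
  rw [cenElt, if_pos (by decide)]

theorem cenElt_one : cenElt (1 : Fin 3).val = sElt (Data.cenGens.getD 1 SPerm.one) := by
  rw [cenElt, if_neg (by decide), if_pos (by decide)]

theorem cenElt_two : cenElt (2 : Fin 3).val = cE := by
  rw [cenElt, if_neg (by decide), if_neg (by decide)]

theorem compat_cen (k : Fin 3) : ((cenElt k, cenPerm8 k) : ↥Co0 × Equiv.Perm (Fin 8)) ∈ compat := by
  intro s hs
  apply Subtype.ext
  show (cenElt k • lineVec s : ↥leechLattice).1 = (lineVec (s.map (cenPerm8 k).toEmbedding)).1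
  rw [map_cenPerm8]
  have hm : ∀ k < 2, ∀ t : Finset (Fin 8), t.card = 4 →
      moveTest (Data.cenGens.getD k SPerm.one) (lineCode t) (lineCode (listMap (permList k) t)) =
        true := by
    decide +kernel
  have hc : ∀ t : Finset (Fin 8), t.card = 4 →
      checkImg (packCols Data.matC.cols) (lineCode t) (lineCode (listMap (permList 2) t)) = true := by
    decide +kernel
  rcases fin3_cases k with rfl | rfl | rfl
  · rw [cenElt_zero]
    exact smul_of_moveTest (sem_sElt (cenGens_ok 0 (by norm_num)).1)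
      (permTest_of_inK (cenGens_ok 0 (by norm_num)).2) rfl (hm 0 (by norm_num) s hs)
  · rw [cenElt_one]
    exact smul_of_moveTest (sem_sElt (cenGens_ok 1 (by norm_num)).1)
      (permTest_of_inK (cenGens_ok 1 (by norm_num)).2) rfl (hm 1 (by norm_num) s hs)
  · rw [cenElt_two, cE]
    exact smul_eq_of_check matC_ok (hc s hs) rfl

theorem compat_tE : ((tE, 1) : ↥Co0 × Equiv.Perm (Fin 8)) ∈ compat := by
  intro s hs
  have ht : ∀ t : Finset (Fin 8), t.card = 4 → fixTest Data.spT (lineCode t) = true := by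
    decide +kernel
  show tE • lineVec s = _
  rw [show (1 : Equiv.Perm (Fin 8)).toEmbedding = Function.Embedding.refl _ from rfl, Finset.map_refl]
  exact smul_of_fixTest sem_tE (by decide +kernel) rfl (ht s hs)

theorem cen_comm (k : Fin 3) : cenElt k ∈ CC ∧ cenPerm8 k ∈ alternatingGroup (Fin 8) := by
  refine ⟨⟨?_, Subgroup.mem_centralizer_iff.2 ?_⟩, ?_⟩
  · rcases fin3_cases k with rfl | rfl | rfl
    · rw [cenElt_zero]
      exact mem_KK_of_sem (sem_sElt (cenGens_ok 0 (by norm_num)).1) (cenGens_ok 0 (by norm_num)).2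
    · rw [cenElt_one]
      exact mem_KK_of_sem (sem_sElt (cenGens_ok 1 (by norm_num)).1) (cenGens_ok 1 (by norm_num)).2
    · rw [cenElt_two]; exact cE_mem
  · rintro _ rfl
    have hc : ∀ k < 2, compTest Data.spT (Data.cenGens.getD k SPerm.one)
        (Data.spT.comp (Data.cenGens.getD k SPerm.one)) = true ∧
        compTest (Data.cenGens.getD k SPerm.one) Data.spT
        (Data.spT.comp (Data.cenGens.getD k SPerm.one)) = true ∧
        permTest (Data.spT.comp (Data.cenGens.getD k SPerm.one)).img = true := by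
      decide +kernel
    rcases fin3_cases k with rfl | rfl | rfl
    · rw [cenElt_zero]
      exact sem_unique (hc 0 (by norm_num)).2.2
        (sem_mul sem_tE (sem_sElt (cenGens_ok 0 (by norm_num)).1) (hc 0 (by norm_num)).1)
        (sem_mul (sem_sElt (cenGens_ok 0 (by norm_num)).1) sem_tE (hc 0 (by norm_num)).2.1)
    · rw [cenElt_one]
      exact sem_unique (hc 1 (by norm_num)).2.2
        (sem_mul sem_tE (sem_sElt (cenGens_ok 1 (by norm_num)).1) (hc 1 (by norm_num)).1)
        (sem_mul (sem_sElt (cenGens_ok 1 (by norm_num)).1) sem_tE (hc 1 (by norm_num)).2.1)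
    · rw [cenElt_two]; exact cE_mul_tE.symm
  · rw [Equiv.Perm.mem_alternatingGroup]
    revert k; decide +kernel

theorem tE_mem_CC : tE ∈ CC := ⟨tE_mem, Subgroup.mem_centralizer_iff.2 (by rintro _ rfl; rfl)⟩

/-- The pairs inside the centraliser and the alternating group. -/
noncomputable def pairs : Subgroup (↥Co0 × Equiv.Perm (Fin 8)) :=
  compat ⊓ CC.prod (alternatingGroup (Fin 8))

theorem cen_mem_pairs (k : Fin 3) :
    ((cenElt k, cenPerm8 k) : ↥Co0 × Equiv.Perm (Fin 8)) ∈ pairs :=
  ⟨compat_cen k, Subgroup.mem_prod.2 ⟨(cen_comm k).1, (cen_comm k).2⟩⟩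

/-- The forgetful map to the centraliser. -/
noncomputable def toCC : ↥pairs →* ↥CC where
  toFun x := ⟨x.1.1, (Subgroup.mem_prod.1 x.2.2).1⟩
  map_one' := rfl
  map_mul' _ _ := rfl

/-- The map to the permutations. -/
noncomputable def toAlt : ↥pairs →* ↥(alternatingGroup (Fin 8)) where
  toFun x := ⟨x.1.2, (Subgroup.mem_prod.1 x.2.2).2⟩
  map_one' := rfl
  map_mul' _ _ := rfl

theorem toCC_injective : Function.Injective toCC := by
  intro x y e
  have e1 : x.1.1 = y.1.1 := congrArg Subtype.val e
  have h : x * y⁻¹ ∈ (⊤ : Subgroup ↥pairs) := Subgroup.mem_top _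
  have hσ : (x * y⁻¹).1.2 = 1 := by
    refine perm_eq_one fun s hs => ?_
    have h1 := (x * y⁻¹).2.1 s hs
    rw [show (x * y⁻¹).1.1 = 1 by
      show x.1.1 * y.1.1⁻¹ = 1
      rw [e1, mul_inv_cancel], one_smul] at h1
    exact lineVec_eq hs (by rw [Finset.card_map]; exact hs) h1
  have e2 : x.1.2 = y.1.2 := by
    have : x.1.2 * y.1.2⁻¹ = 1 := hσ
    rwa [mul_inv_eq_one] at this
  exact Subtype.ext (Prod.ext e1 e2)

/-- The value of a word in the generators. -/
def wordPerm : List ℕ → Equiv.Perm (Fin 8)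
  | [] => 1
  | k :: ks => cenPerm8 (Fin.ofNat 3 k) * wordPerm ks

theorem exists_pair_word : ∀ w : List ℕ, ∃ x : ↥pairs, x.1.2 = wordPerm w
  | [] => ⟨1, rfl⟩
  | k :: ks => by
    obtain ⟨x, hx⟩ := exists_pair_word ks
    exact ⟨⟨_, cen_mem_pairs (Fin.ofNat 3 k)⟩ * x, by
      show cenPerm8 _ * x.1.2 = _
      rw [hx, wordPerm]⟩

theorem toAlt_surjective : Function.Surjective toAlt := by
  have hr : ∀ k : Fin 8, 2 ≤ k.val →
      Equiv.swap 0 1 * Equiv.swap 0 k ∈ toAlt.range.map (alternatingGroup (Fin 8)).subtype := by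
    intro k hk
    have hw : ∀ j : Fin 6, ∀ i : Fin 8,
        (wordPerm (Data.cycWords.getD j.val []) i).val =
          (if i.val = 0 then 1 else if i.val = 1 then j.val + 2 else if i.val = j.val + 2 then 0
            else i.val) := by
      decide +kernel
    obtain ⟨x, hx⟩ := exists_pair_word (Data.cycWords.getD (k.val - 2) [])
    have e : x.1.2 = (Equiv.swap 0 1 * Equiv.swap 0 k)⁻¹ ∨
        x.1.2 = Equiv.swap 0 1 * Equiv.swap 0 k := by
      have hw' := hw ⟨k.val - 2, by omega⟩
      rw [← hx] at hw'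
      have key : ∀ j : Fin 6, (∀ i : Fin 8,
          (if i.val = 0 then 1 else if i.val = 1 then j.val + 2 else if i.val = j.val + 2 then 0
            else i.val) = ((Equiv.swap (0 : Fin 8) 1 * Equiv.swap 0 (Fin.ofNat 8 (j.val + 2)))⁻¹ i).val)
          ∨ (∀ i : Fin 8,
          (if i.val = 0 then 1 else if i.val = 1 then j.val + 2 else if i.val = j.val + 2 then 0
            else i.val) = ((Equiv.swap (0 : Fin 8) 1 * Equiv.swap 0 (Fin.ofNat 8 (j.val + 2))) i).val) := by
        decide +kernel
      have hk' : Fin.ofNat 8 ((⟨k.val - 2, by omega⟩ : Fin 6).val + 2) = k := by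
        apply Fin.ext
        simp [Fin.ofNat]
        omega
      rcases key ⟨k.val - 2, by omega⟩ with h | h
      · left; refine Equiv.ext fun i => Fin.ext ?_
        rw [hw' i, h i, hk']
      · right; refine Equiv.ext fun i => Fin.ext ?_
        rw [hw' i, h i, hk']
    have hx' : x.1.2 ∈ toAlt.range.map (alternatingGroup (Fin 8)).subtype :=
      ⟨toAlt x, ⟨x, rfl⟩, rfl⟩
    rcases e with e | e
    · rw [e] at hx'
      exact inv_mem_iff.1 hx'
    · rwa [e] at hx'
  -- double transpositions through the point `0`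
  have h2 : ∀ a b : Fin 8, a ≠ 0 → b ≠ 0 →
      Equiv.swap 0 a * Equiv.swap 0 b ∈ toAlt.range.map (alternatingGroup (Fin 8)).subtype := by
    have hbase : ∀ a : Fin 8, a ≠ 0 →
        Equiv.swap 0 1 * Equiv.swap 0 a ∈ toAlt.range.map (alternatingGroup (Fin 8)).subtype := by
      intro a ha
      by_cases h1 : a = 1
      · subst h1; rw [Equiv.swap_mul_self]; exact one_mem _
      · refine hr a ?_
        have := Fin.val_ne_of_ne ha; have := Fin.val_ne_of_ne h1
        simp at *; omega
    intro a b ha hb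
    have := mul_mem (inv_mem (hbase a ha)) (hbase b hb)
    rwa [mul_inv_rev, Equiv.swap_inv, Equiv.swap_inv, mul_assoc, Equiv.swap_mul_self_mul] at this
  have hle : alternatingGroup (Fin 8) ≤ toAlt.range.map (alternatingGroup (Fin 8)).subtype := by
    refine (Equiv.Perm.closure_three_cycles_eq_alternating (α := Fin 8)).symm.le.trans ?_
    rw [Subgroup.closure_le]
    intro σ hσ
    have hmem : σ ∈ alternatingGroup (Fin 8) := hσ.mem_alternatingGroup
    obtain ⟨a, b, c, hab, hac, hbc, rfl⟩ : ∃ a b c : Fin 8, a ≠ b ∧ a ≠ c ∧ b ≠ c ∧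
        σ = Equiv.swap a b * Equiv.swap a c := by
      obtain ⟨x, hx⟩ : ∃ x, x ∈ σ.support := Finset.card_pos.1 (by rw [hσ.card_support]; norm_num)
      have e := hσ.eq_swap_mul_swap_iff_mem_support.2 hx
      have hnd := hσ.nodup_iff_mem_support.2 hx
      simp only [List.nodup_cons, List.mem_cons, List.not_mem_nil, or_false, not_or] at hnd
      exact ⟨σ x, x, σ (σ x), Ne.symm hnd.1.1, hnd.2.1, hnd.1.2, by rw [Equiv.swap_comm (σ x) x]; exact e⟩
    have hsw : ∀ a b : Fin 8, a ≠ 0 → b ≠ 0 → a ≠ b →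
        Equiv.swap a b = Equiv.swap 0 a * Equiv.swap 0 b * Equiv.swap 0 a := by
      decide +kernel
    by_cases ha : a = 0
    · subst ha; exact h2 b c (Ne.symm hab) (Ne.symm hac)
    by_cases hb : b = 0
    · subst hb
      rw [Equiv.swap_comm a 0, hsw a c ha (Ne.symm hbc) hac, ← mul_assoc, ← mul_assoc,
        Equiv.swap_mul_self, one_mul]
      exact h2 c a (Ne.symm hbc) ha
    by_cases hc : c = 0
    · subst hc
      rw [Equiv.swap_comm a 0, hsw a b ha hb hab, mul_assoc, Equiv.swap_mul_self, mul_one]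
      exact h2 a b ha hb
    rw [hsw a b ha hb hab, hsw a c ha hc hac, show
      Equiv.swap 0 a * Equiv.swap 0 b * Equiv.swap 0 a * (Equiv.swap 0 a * Equiv.swap 0 c * Equiv.swap 0 a) =
      (Equiv.swap 0 a * Equiv.swap 0 b) * (Equiv.swap 0 c * Equiv.swap 0 a) by
        simp [mul_assoc]]
    exact mul_mem (h2 a b ha hb) (h2 c a hc ha)
  intro y
  obtain ⟨z, ⟨x, rfl⟩, hz⟩ := hle y.2
  exact ⟨x, Subtype.ext hz⟩

/-- The standard involution, in the pairs. -/
noncomputable def tPair : ↥pairs :=
  ⟨(tE, 1), compat_tE, Subgroup.mem_prod.2 ⟨tE_mem_CC, one_mem _⟩⟩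

theorem card_alt8 : Nat.card ↥(alternatingGroup (Fin 8)) = 20160 := by
  rw [nat_card_alternatingGroup, Nat.card_eq_fintype_card, Fintype.card_fin]; decide +kernel

theorem toCC_bijective_and_card :
    Function.Bijective toCC ∧ Nat.card ↥pairs = 40320 ∧ Nat.card ↥toAlt.ker = 2 := by
  have : Finite ↥pairs := Finite.of_injective _ toCC_injective
  have h := toAlt.ker.card_mul_index
  rw [Subgroup.index_ker, MonoidHom.range_eq_top.2 toAlt_surjective, Subgroup.card_top,
    card_alt8] at h
  have h2 : 2 ≤ Nat.card ↥toAlt.ker := by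
    rw [← Nat.lt_iff_add_one_le, Finite.one_lt_card_iff_nontrivial]
    refine ⟨⟨1, ⟨tPair, MonoidHom.mem_ker.2 rfl⟩, fun e => tE_ne_one ?_⟩⟩
    exact (congrArg (fun x : ↥toAlt.ker => x.1.1.1) e).symm
  have hle := Nat.card_le_card_of_injective _ toCC_injective
  have hCC := card_CC_le
  generalize hn : Nat.card ↥toAlt.ker = n at h h2
  generalize hp' : Nat.card ↥pairs = m at h hle
  generalize hc' : Nat.card ↥CC = c at hle hCC
  have hn2 : n = 2 := by nlinarith
  subst hn2
  have hcm : c = m := le_antisymm (by linarith) hle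
  refine ⟨(Nat.bijective_iff_injective_and_card _).2 ⟨toCC_injective, ?_⟩, ?_, rfl⟩
  · rw [hp', hc', hcm]
  · rw [← h]

end Cfsg.Agent.H41.McL
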