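import Cfsg.Agent.H41.McL.Image

/-! The McLaughlin group: one class of involutions, with centraliser a double cover of `A₈`. -/

set_option autoImplicit false
set_option maxRecDepth 20000

namespace Cfsg.Agent.H41.McL

/-- A surjection onto a centreless group whose kernel has two elements, generated by a square, is a
non-split double cover. -/
theorem isNonsplitDoubleCover_of_hom {H K : Type*} [Group H] [Group K] (q : H →* K)
    (hq : Function.Surjective q) (hK : Subgroup.center K = ⊥) (hker : Nat.card ↥q.ker = 2)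
    (z x : H) (hz : z ∈ q.ker) (hz1 : z ≠ 1) (hx : x * x = z) : IsNonsplitDoubleCover H K := by
  have hfin : Finite ↥q.ker := Nat.finite_of_card_ne_zero (by omega)
  have htwo : ∀ y ∈ q.ker, y = 1 ∨ y = z := by
    intro y hy
    by_contra hcon
    push Not at hcon
    let f : Fin 3 → ↥q.ker := ![1, ⟨z, hz⟩, ⟨y, hy⟩]
    have hf : Function.Injective f := by
      intro i j e
      fin_cases i <;> fin_cases j <;>
        simp [f, Subtype.ext_iff, hz1, Ne.symm hz1, hcon.1, Ne.symm hcon.1, hcon.2,
          Ne.symm hcon.2] at e ⊢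
    have := Nat.card_le_card_of_injective f hf
    rw [Nat.card_fin, hker] at this
    omega
  have hcen : Subgroup.center H = q.ker := by
    apply le_antisymm
    · intro c hc
      rw [MonoidHom.mem_ker, ← Subgroup.mem_bot, ← hK, Subgroup.mem_center_iff]
      intro k
      obtain ⟨g, rfl⟩ := hq k
      rw [← map_mul, ← map_mul, Subgroup.mem_center_iff.1 hc g]
    · intro c hc
      rw [Subgroup.mem_center_iff]
      intro g
      rcases htwo c hc with rfl | rfl
      · simp
      · rcases htwo (g * c * g⁻¹) (by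
          rw [MonoidHom.mem_ker] at hc ⊢
          simp [hc]) with e | e
        · exact absurd (by
            have := congrArg (fun u => g⁻¹ * u * g) e
            simpa [mul_assoc] using this) hz1
        · exact mul_inv_eq_iff_eq_mul.1 e
  refine ⟨hcen ▸ hker, ⟨(QuotientGroup.quotientMulEquivOfEq hcen).trans
    (QuotientGroup.quotientKerEquivOfSurjective q hq)⟩, fun L hL => ?_⟩
  have hzL : z ∈ L := by
    obtain ⟨⟨⟨c, hc⟩, ⟨l, hl⟩⟩, e, -⟩ := hL.existsUnique x
    simp only at e
    rw [← hx, ← e]
    have hc' : c * c = 1 := by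
      rcases htwo c (hcen ▸ hc) with rfl | rfl
      · simp
      · rcases htwo (c * c) (mul_mem hz hz) with h | h
        · exact h
        · exact absurd (mul_eq_left.1 h) hz1
    have hcl : l * c = c * l := Subgroup.mem_center_iff.1 hc l
    rw [show c * l * (c * l) = c * c * (l * l) by
      rw [mul_assoc, ← mul_assoc l c l, hcl]
      simp only [mul_assoc], hc', one_mul]
    exact mul_mem hl hl
  have := Subgroup.disjoint_def.1 hL.disjoint (hcen.symm ▸ hz) hzL
  exact hz1 this

theorem center_alt8 : Subgroup.center ↥(alternatingGroup (Fin 8)) = ⊥ := by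
  have : IsSimpleGroup ↥(alternatingGroup (Fin 8)) :=
    alternatingGroup.isSimpleGroup (by simp)
  refine (Subgroup.Normal.eq_bot_or_eq_top inferInstance).resolve_right fun h => ?_
  have key : ∃ a b : Equiv.Perm (Fin 8),
      Equiv.Perm.sign a = 1 ∧ Equiv.Perm.sign b = 1 ∧ a * b ≠ b * a := by
    refine ⟨Equiv.swap 0 1 * Equiv.swap 1 2, Equiv.swap 0 1 * Equiv.swap 2 3, ?_⟩
    decide +kernel
  obtain ⟨a, b, ha, hb, hab⟩ := key
  have hc : (⟨b, Equiv.Perm.mem_alternatingGroup.2 hb⟩ : ↥(alternatingGroup (Fin 8))) ∈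
      Subgroup.center ↥(alternatingGroup (Fin 8)) := h ▸ Subgroup.mem_top _
  exact hab (congrArg Subtype.val
    (Subgroup.mem_center_iff.1 hc ⟨a, Equiv.Perm.mem_alternatingGroup.2 ha⟩))

theorem rE_mem_CC : rE ∈ CC := ⟨rE_mem, Subgroup.mem_centralizer_iff.2 (by
  rintro _ rfl
  rw [← rE_mul_self, mul_assoc])⟩

/-- The statement for the McLaughlin group. -/
theorem main : (∀ x y : ↥Spor.McL, orderOf x = 2 → orderOf y = 2 → IsConj x y) ∧
    ∃ t : ↥Spor.McL, orderOf t = 2 ∧
      IsNonsplitDoubleCover ↥(Subgroup.centralizer ({t} : Set ↥Spor.McL))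
        ↥(alternatingGroup (Fin 8)) := by
  obtain ⟨F⟩ := nonempty_equiv
  refine ⟨fun x y hx hy => ?_, F tK, by rw [MulEquiv.orderOf_eq]; exact orderOf_tE, ?_⟩
  · have h1 := isConj_tK (F.symm x) (by rw [MulEquiv.orderOf_eq]; exact hx)
    have h2 := isConj_tK (F.symm y) (by rw [MulEquiv.orderOf_eq]; exact hy)
    simpa using F.toMonoidHom.map_isConj (h1.symm.trans h2)
  let e : ↥CC ≃* ↥(Subgroup.centralizer ({F tK} : Set ↥Spor.McL)) :=
    { toFun := fun g => ⟨F ⟨g.1, g.2.1⟩, Subgroup.mem_centralizer_iff.2 (by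
        rintro _ rfl
        rw [← map_mul, ← map_mul]
        exact congrArg F (Subtype.ext (Subgroup.mem_centralizer_iff.1 g.2.2 tE rfl)))⟩
      invFun := fun g => ⟨(F.symm g.1).1, (F.symm g.1).2, Subgroup.mem_centralizer_iff.2 (by
        rintro _ rfl
        have h := congrArg F.symm (Subgroup.mem_centralizer_iff.1 g.2 (F tK) rfl)
        rw [map_mul, map_mul, MulEquiv.symm_apply_apply] at h
        exact congrArg Subtype.val h)⟩
      left_inv := fun g => Subtype.ext (show (F.symm (F ⟨g.1, g.2.1⟩)).1 = g.1 by rw [MulEquiv.symm_apply_apply])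
      right_inv := fun g => Subtype.ext (F.apply_symm_apply g.1)
      map_mul' := fun g h => Subtype.ext (map_mul F ⟨g.1, g.2.1⟩ ⟨h.1, h.2.1⟩) }
  let p := (MulEquiv.ofBijective toCC toCC_bijective_and_card.1).trans e
  let q := toAlt.comp p.symm.toMonoidHom
  refine isNonsplitDoubleCover_of_hom q (toAlt_surjective.comp p.symm.surjective) center_alt8 ?_
    (p tPair) (e ⟨rE, rE_mem_CC⟩) ?_ ?_ ?_
  · rw [← toCC_bijective_and_card.2.2]
    refine Nat.card_congr
      { toFun := fun g => ⟨p.symm g.1, g.2⟩
        invFun := fun g => ⟨p g.1, by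
          show toAlt (p.symm (p g.1)) = 1
          rw [MulEquiv.symm_apply_apply]; exact g.2⟩
        left_inv := fun g => Subtype.ext (p.apply_symm_apply g.1)
        right_inv := fun g => Subtype.ext (p.symm_apply_apply g.1) }
  · show toAlt (p.symm (p tPair)) = 1
    rw [MulEquiv.symm_apply_apply]; rfl
  · intro h
    rw [← map_one p] at h
    exact tE_ne_one (congrArg (fun x : ↥pairs => x.1.1) (p.injective h))
  · rw [← map_mul]
    exact congrArg e (Subtype.ext rE_mul_self)

end Cfsg.Agent.H41.McL
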