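import Cfsg.Agent.H14.LeechMonomial
import Cfsg.Agent.H15.ConwayBase

/-!
Monomial elements of `Cfsg.Co0` given by codes: a list of the 24 images of the positions and a bit
mask of the sign changes.
-/

set_option autoImplicit false

namespace Cfsg.Agent.H41.McL

open Finset Cfsg.Agent.H14 Cfsg.Agent.H15

/-- The point at a position. -/
def pnt (i : ℕ) : GolayPt := H9.gPt (Fin.ofNat 24 i)

theorem idx_pnt {i : ℕ} (h : i < 24) : H15.idx (pnt i) = i := by
  unfold H15.idx pnt
  rw [H9.gIdx_gPt]
  simp [Fin.ofNat, Nat.mod_eq_of_lt h]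

theorem pnt_idx (p : GolayPt) : pnt (H15.idx p) = p :=
  H15.idx_injective (idx_pnt (H15.idx_lt p))

/-- A signed permutation of the positions. -/
structure SPerm where
  /-- the images of the positions -/
  img : List ℕ
  /-- the mask of negated positions -/
  neg : ℕ
deriving DecidableEq

/-- The image of a position. -/
def SPerm.im (e : SPerm) (i : ℕ) : ℕ := e.img.getD i 0

/-- The sign at a position. -/
def SPerm.sgn (e : SPerm) (i : ℕ) : ℤ := if e.neg.testBit i then -1 else 1

/-- The permutation test. -/
def permTest (l : List ℕ) : Bool :=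
  (List.range 24).all fun i => decide (l.getD i 0 < 24) && (List.range 24).all fun j =>
    decide (i = j) || decide (l.getD i 0 ≠ l.getD j 0)

theorem permTest_spec {l : List ℕ} (h : permTest l = true) :
    (∀ i < 24, l.getD i 0 < 24) ∧
      ∀ i < 24, ∀ j < 24, l.getD i 0 = l.getD j 0 → i = j := by
  simp only [permTest, List.all_eq_true, List.mem_range, Bool.and_eq_true, Bool.or_eq_true,
    decide_eq_true_eq] at h
  refine ⟨fun i hi => (h i hi).1, fun i hi j hj e => ?_⟩
  rcases (h i hi).2 j hj with h' | h'
  · exact h'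
  · exact absurd e h'

/-- The map of points of a list of images. -/
def ptMap (l : List ℕ) (p : GolayPt) : GolayPt := pnt (l.getD (H15.idx p) 0)

theorem ptMap_injective {l : List ℕ} (h : permTest l = true) : Function.Injective (ptMap l) := by
  obtain ⟨h1, h2⟩ := permTest_spec h
  intro p q e
  have := congrArg H15.idx e
  rw [ptMap, ptMap, idx_pnt (h1 _ (H15.idx_lt p)), idx_pnt (h1 _ (H15.idx_lt q))] at this
  exact H15.idx_injective (h2 _ (H15.idx_lt p) _ (H15.idx_lt q) this)

/-- The permutation of the points of a list of images. -/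
noncomputable def ptPerm (l : List ℕ) : Equiv.Perm GolayPt :=
  if h : permTest l = true then
    Equiv.ofBijective (ptMap l) (Finite.injective_iff_bijective.1 (ptMap_injective h))
  else 1

theorem ptPerm_apply {l : List ℕ} (h : permTest l = true) (p : GolayPt) :
    ptPerm l p = ptMap l p := by
  rw [ptPerm, dif_pos h]; rfl

/-- The image of a mask under a list of images. -/
def imgMask (l : List ℕ) (m : ℕ) : ℕ :=
  (List.range 24).foldr (fun i acc => (if m.testBit i then 2 ^ l.getD i 0 else 0) ^^^ acc) 0

/-- The test that a mask is in the code. -/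
def codeTest (k : ℕ) : Bool := xorSel k H9.golayRows == k

theorem natWord_mem_of_codeTest {k : ℕ} (h : codeTest k = true) : H9.natWord k ∈ golayCode := by
  rw [codeTest, beq_iff_eq] at h
  rw [← h]
  exact xorSel_mem k _ fun _ hr => hr

/-- The test that a list of images preserves the code. -/
def m24Test (l : List ℕ) : Bool :=
  H9.golayRows.all fun r => codeTest (imgMask l r) &&
    (List.range 24).all fun i => (imgMask l r).testBit (l.getD i 0) == r.testBit i

/-- All tests of a signed permutation. -/
def SPerm.ok (e : SPerm) : Bool := permTest e.img && m24Test e.img && codeTest e.neg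

theorem ptPerm_mem {l : List ℕ} (hp : permTest l = true) (hm : m24Test l = true) :
    ptPerm l ∈ M24 := by
  let f : (GolayPt → ZMod 2) →ₗ[ZMod 2] (GolayPt → ZMod 2) :=
    { toFun := fun w i => w ((ptPerm l).symm i)
      map_add' := fun _ _ => rfl
      map_smul' := fun _ _ => rfl }
  have himg : ∀ w ∈ golayCode, f w ∈ golayCode := by
    intro w hw
    rw [H9.golayCode_eq_span] at hw
    refine (Submodule.span_le (p := Submodule.comap f golayCode)).2 ?_ hw
    rintro _ ⟨r, hr, rfl⟩
    have h := List.all_eq_true.1 hm r hr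
    rw [Bool.and_eq_true, List.all_eq_true] at h
    have e : f (H9.natWord r) = H9.natWord (imgMask l r) := by
      funext i
      obtain ⟨q, rfl⟩ := (ptPerm l).surjective i
      show H9.natWord r ((ptPerm l).symm (ptPerm l q)) = _
      rw [Equiv.symm_apply_apply, ptPerm_apply hp]
      have h2 := h.2 (H15.idx q) (List.mem_range.2 (H15.idx_lt q))
      rw [beq_iff_eq] at h2
      show (if r.testBit (H15.idx q) then (1 : ZMod 2) else 0) =
        if (imgMask l r).testBit (H15.idx (ptMap l q)) then (1 : ZMod 2) else 0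
      rw [ptMap, idx_pnt ((permTest_spec hp).1 _ (H15.idx_lt q)), h2]
    show f (H9.natWord r) ∈ golayCode
    rw [e]
    exact natWord_mem_of_codeTest h.1
  let F : golayCode → golayCode := fun w => ⟨_, himg w.1 w.2⟩
  have Finj : Function.Injective F := fun a b e => by
    ext i
    have := congrFun (congrArg Subtype.val e) (ptPerm l i)
    simpa [F, f] using this
  rw [mem_M24_iff]
  refine fun w => ⟨himg w, fun h => ?_⟩
  obtain ⟨v, hv⟩ := (Finite.injective_iff_bijective.1 Finj).2 ⟨_, h⟩
  convert v.2 using 1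
  ext i
  have := congrFun (congrArg Subtype.val hv) (ptPerm l i)
  simp [F, f] at this
  exact this.symm

/-- The monomial element of a code. -/
noncomputable def sElt (e : SPerm) : ↥Co0 :=
  if h : e.ok = true then
    monoAut (ptPerm e.img)
      (ptPerm_mem (by simp only [SPerm.ok, Bool.and_eq_true] at h; exact h.1.1)
        (by simp only [SPerm.ok, Bool.and_eq_true] at h; exact h.1.2))
      (H9.natWord e.neg)
      (natWord_mem_of_codeTest (by simp only [SPerm.ok, Bool.and_eq_true] at h; exact h.2))
  else 1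

/-- What it means that a code describes an element. -/
def Sem (g : ↥Co0) (e : SPerm) : Prop :=
  ∀ x : GolayPt → ℤ, IsLeech x → ∀ i < 24, act g x (pnt (e.im i)) = e.sgn (e.im i) * x (pnt i)

theorem sem_sElt {e : SPerm} (h : e.ok = true) : Sem (sElt e) e := by
  have h' := h
  simp only [SPerm.ok, Bool.and_eq_true] at h'
  intro x hx i hi
  rw [sElt, dif_pos h, act_monoAut _ _ hx]
  have e1 : pnt (e.im i) = ptPerm e.img (pnt i) := by
    rw [ptPerm_apply h'.1.1, ptMap, idx_pnt hi]; rfl
  have e2 : H15.idx (pnt (e.im i)) = e.im i := idx_pnt ((permTest_spec h'.1.1).1 i hi)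
  rw [signFun, permFun]
  have e3 : (ptPerm e.img).symm (pnt (e.im i)) = pnt i := by rw [e1, Equiv.symm_apply_apply]
  rw [e3]
  unfold H9.natWord
  unfold SPerm.sgn
  unfold H15.idx at e2
  rw [e2]
  cases e.neg.testBit (e.im i) <;> simp

theorem sem_unique {g g' : ↥Co0} {e : SPerm} (he : permTest e.img = true) (h : Sem g e)
    (h' : Sem g' e) : g = g' := by
  refine act_eq_of_forall fun x hx => funext fun p => ?_
  obtain ⟨q, rfl⟩ := (ptPerm e.img).surjective p
  have e1 : ptPerm e.img q = pnt (e.im (H15.idx q)) := ptPerm_apply he q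
  rw [e1, h x hx _ (H15.idx_lt q), h' x hx _ (H15.idx_lt q)]

/-- The code of a product. -/
def SPerm.comp (a b : SPerm) : SPerm where
  img := (List.range 24).map fun i => a.im (b.im i)
  neg := (List.range 24).foldr (fun j acc =>
    (if (a.neg.testBit (a.im j) != b.neg.testBit j) then 2 ^ a.im j else 0) ^^^ acc) 0

/-- The test that `c` is the code of the product of `a` and `b`. -/
def compTest (a b c : SPerm) : Bool :=
  (List.range 24).all fun i => decide (b.im i < 24) && decide (c.im i = a.im (b.im i)) &&
    (c.neg.testBit (c.im i) == (a.neg.testBit (c.im i) != b.neg.testBit (b.im i)))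

theorem sem_mul {g h : ↥Co0} {a b c : SPerm} (hg : Sem g a) (hh : Sem h b)
    (ht : compTest a b c = true) : Sem (g * h) c := by
  intro x hx i hi
  have hc := List.all_eq_true.1 ht i (List.mem_range.2 hi)
  simp only [Bool.and_eq_true, decide_eq_true_eq, beq_iff_eq] at hc
  obtain ⟨⟨h1, h2⟩, h3⟩ := hc
  rw [mul_act, h2, hg _ (isLeech_act h hx) _ h1, hh x hx i hi, ← mul_assoc]
  congr 1
  rw [h2] at h3
  simp only [SPerm.sgn, h3]
  cases a.neg.testBit (a.im (b.im i)) <;> cases b.neg.testBit (b.im i) <;> simp

/-- The identity code. -/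
def SPerm.one : SPerm := ⟨List.range 24, 0⟩

theorem sem_one : Sem 1 SPerm.one := by
  intro x hx i hi
  have : SPerm.one.im i = i := by
    rw [SPerm.im, SPerm.one, List.getD_eq_getElem _ _ (by simpa using hi)]; simp
  rw [one_act, this]
  simp [SPerm.sgn, SPerm.one]

theorem mul_eq_of_test {g h k : ↥Co0} {a b c : SPerm} (hg : Sem g a) (hh : Sem h b) (hk : Sem k c)
    (hc : permTest c.img = true) (ht : compTest a b c = true) : g * h = k :=
  sem_unique hc (sem_mul hg hh ht) hk

/-- The test that a code fixes a packed vector. -/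
def fixTest (e : SPerm) (P : ℕ) : Bool :=
  (List.range 24).all fun i => decide (e.im i < 24) &&
    (nib P (e.im i) == e.sgn (e.im i) * nib P i)

theorem act_of_fixTest {g : ↥Co0} {e : SPerm} (hg : Sem g e) (he : permTest e.img = true) {P : ℕ}
    (hP : IsLeech (vecOf P)) (ht : fixTest e P = true) : act g (vecOf P) = vecOf P := by
  funext p
  obtain ⟨q, rfl⟩ := (ptPerm e.img).surjective p
  have hi := H15.idx_lt q
  have hc := List.all_eq_true.1 ht _ (List.mem_range.2 hi)
  simp only [Bool.and_eq_true, decide_eq_true_eq, beq_iff_eq] at hc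
  rw [ptPerm_apply he q]
  show act g (vecOf P) (pnt (e.im (H15.idx q))) = vecOf P (pnt (e.im (H15.idx q)))
  rw [hg _ hP _ hi]
  simp only [vecOf, idx_pnt hi, idx_pnt hc.1, hc.2]

theorem smul_of_fixTest {g : ↥Co0} {e : SPerm} (hg : Sem g e) (he : permTest e.img = true) {P : ℕ}
    {x : ↥leechLattice} (hx : x.1 = vecOf P) (ht : fixTest e P = true) : g • x = x := by
  refine smul_eq_of_act ?_
  rw [hx]
  exact act_of_fixTest hg he (hx ▸ IsLeech.coe x) ht

/-- The test that a code carries one packed vector to another. -/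
def moveTest (e : SPerm) (P Q : ℕ) : Bool :=
  (List.range 24).all fun i => decide (e.im i < 24) &&
    (nib Q (e.im i) == e.sgn (e.im i) * nib P i)

theorem smul_of_moveTest {g : ↥Co0} {e : SPerm} (hg : Sem g e) (he : permTest e.img = true)
    {P Q : ℕ} {x : ↥leechLattice} (hx : x.1 = vecOf P) (ht : moveTest e P Q = true) :
    (g • x : ↥leechLattice).1 = vecOf Q := by
  rw [← act_coe]
  funext p
  obtain ⟨q, rfl⟩ := (ptPerm e.img).surjective p
  have hi := H15.idx_lt q
  have hc := List.all_eq_true.1 ht _ (List.mem_range.2 hi)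
  simp only [Bool.and_eq_true, decide_eq_true_eq, beq_iff_eq] at hc
  rw [ptPerm_apply he q]
  show act g x.1 (pnt (e.im (H15.idx q))) = vecOf Q (pnt (e.im (H15.idx q)))
  rw [hg _ (IsLeech.coe x) _ hi, hx]
  simp only [vecOf, idx_pnt hi, idx_pnt hc.1, hc.2]

/-- The test that a matrix intertwines two codes. -/
def twineTest (M : Mat) (a b : SPerm) : Bool :=
  (List.range 24).all fun i => (List.range 24).all fun j =>
    decide (a.im j < 24) && decide (b.im i < 24) &&
      (M.entry (b.im i) (a.im j) * a.sgn (a.im j) == b.sgn (b.im i) * M.entry i j)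

theorem mul_eq_of_twine {M : Mat} (hM : M.ok = true) {g g' : ↥Co0} {a b : SPerm}
    (hg : Sem g a) (hg' : Sem g' b) (ha : permTest a.img = true) (hb : permTest b.img = true)
    (ht : twineTest M a b = true) : matAut M hM * g = g' * matAut M hM := by
  refine act_eq_of_forall fun x hx => funext fun p => ?_
  obtain ⟨r, rfl⟩ := (ptPerm b.img).surjective p
  have hi := H15.idx_lt r
  rw [ptPerm_apply hb r]
  show act (matAut M hM * g) x (pnt (b.im (H15.idx r))) =
    act (g' * matAut M hM) x (pnt (b.im (H15.idx r)))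
  rw [mul_act, mul_act, hg' _ (isLeech_act _ hx) _ hi]
  have hmat : ∀ {y : GolayPt → ℤ}, IsLeech y → ∀ q,
      8 * act (matAut M hM) y q = ∑ j, M.entry (H15.idx q) (H15.idx j) * y j := by
    intro y hy q
    rw [act_of_isLeech _ hy, matAut, mkCo0_apply]
    exact (image_spec (Mat.ok_spec hM).2.2.2.2.2.1 (Mat.ok_spec hM).1
      (Mat.ok_spec hM).2.2.2.2.2.2.1 hy).2 q
  have hbi : b.im (H15.idx r) < 24 := (permTest_spec hb).1 _ hi
  have e8 : (8 : ℤ) * act (matAut M hM) (act g x) (pnt (b.im (H15.idx r))) =
      8 * (b.sgn (b.im (H15.idx r)) * act (matAut M hM) x (pnt (H15.idx r))) := by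
    rw [hmat (isLeech_act g hx), mul_left_comm, hmat hx, mul_sum, idx_pnt hbi, idx_pnt hi,
      ← Equiv.sum_comp (ptPerm a.img) (fun j => M.entry (b.im (H15.idx r)) (H15.idx j) * act g x j)]
    refine sum_congr rfl fun j _ => ?_
    have hj := H15.idx_lt j
    have hc := List.all_eq_true.1 (List.all_eq_true.1 ht _ (List.mem_range.2 hi)) _
      (List.mem_range.2 hj)
    simp only [Bool.and_eq_true, decide_eq_true_eq, beq_iff_eq] at hc
    obtain ⟨⟨h1, -⟩, h3⟩ := hc
    rw [ptPerm_apply ha j]
    show M.entry _ (H15.idx (pnt (a.im (H15.idx j)))) * act g x (pnt (a.im (H15.idx j))) = _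
    rw [idx_pnt h1, hg x hx _ hj, pnt_idx, ← mul_assoc, h3, mul_assoc]
  exact mul_left_cancel₀ (by norm_num : (8 : ℤ) ≠ 0) e8

end Cfsg.Agent.H41.McL
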