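import Cfsg.Agent.H41.McL.Base
import Cfsg.Agent.H11.OctadStab

/-!
The monomial part of the centraliser of the involution has order at most `16 * 168`.
-/

set_option autoImplicit false
set_option maxRecDepth 20000

namespace Cfsg.Agent.H41.McL

open Finset Cfsg.Agent.H14 Cfsg.Agent.H15
open scoped Pointwise

/-- The first octad, as a set of points. -/
def octA : Finset GolayPt := univ.filter fun p => Data.o1.testBit (H15.idx p)

/-- The second octad, as a set of points. -/
def octB : Finset GolayPt := univ.filter fun p => Data.o2.testBit (H15.idx p)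

theorem mem_octA {p : GolayPt} : p ∈ octA ↔ Data.o1.testBit (H15.idx p) = true := by simp [octA]

theorem mem_octB {p : GolayPt} : p ∈ octB ↔ Data.o2.testBit (H15.idx p) = true := by simp [octB]

theorem octA_mem : octA ∈ octads := by
  rw [H11.mem_octads_iff]
  refine ⟨Data.o1, by decide +kernel, ?_⟩
  have h : ∀ p : GolayPt, Data.o1.testBit (H15.idx p) = Data.o1.testBit (H12.idx p) := by
    decide +kernel
  ext p
  rw [H12.mem_fin, mem_octA, h]

/-- The permutations fixing the two special points and the first octad. -/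
def fixPair : Subgroup (Equiv.Perm GolayPt) :=
  H11.stabM24 octA ⊓ MulAction.stabilizer (Equiv.Perm GolayPt) (pnt 23) ⊓
    MulAction.stabilizer (Equiv.Perm GolayPt) (pnt 0)

theorem pnt23_mem : pnt 23 ∈ octA := by
  rw [mem_octA, idx_pnt (by norm_num)]; decide +kernel

theorem pnt0_not_mem : pnt 0 ∉ octA := by
  rw [mem_octA, idx_pnt (by norm_num)]; decide +kernel

theorem card_fixPair_le : Nat.card ↥fixPair ≤ 2520 := by
  classical
  let p : ↥octA := ⟨pnt 23, pnt23_mem⟩
  have hmem : ∀ g : ↥fixPair, H11.restrictHom octA ⟨g.1, g.2.1.1⟩ ∈ alternatingGroup ↥octA := by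
    intro g
    rw [← H11.range_restrictHom_octad octA_mem]
    exact ⟨_, rfl⟩
  let f : ↥fixPair → ↥(MulAction.stabilizer ↥(alternatingGroup ↥octA) p) := fun g =>
    ⟨⟨_, hmem g⟩, MulAction.mem_stabilizer_iff.2
      (Subtype.ext (MulAction.mem_stabilizer_iff.1 g.2.1.2))⟩
  have hf : Function.Injective f := by
    intro g h e
    have e' : H11.restrictHom octA ⟨g.1, g.2.1.1⟩ = H11.restrictHom octA ⟨h.1, h.2.1.1⟩ :=
      congrArg (fun x : ↥(MulAction.stabilizer ↥(alternatingGroup ↥octA) p) =>
        (x.1 : Equiv.Perm ↥octA)) e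
    have hk : (⟨h.1, h.2.1.1⟩⁻¹ * ⟨g.1, g.2.1.1⟩ : ↥(H11.stabM24 octA)) ∈
        (H11.restrictHom octA).ker := by
      rw [MonoidHom.mem_ker, map_mul, map_inv, e', inv_mul_cancel]
    have h1 := H11.eq_one_of_mem_fixM24 octA_mem (H11.mem_ker_restrictHom.1 hk) pnt0_not_mem
      (show h.1⁻¹ (g.1 (pnt 0)) = pnt 0 by
        rw [show g.1 (pnt 0) = pnt 0 from MulAction.mem_stabilizer_iff.1 g.2.2,
          Equiv.Perm.inv_eq_iff_eq]
        exact (MulAction.mem_stabilizer_iff.1 h.2.2).symm)
    exact Subtype.ext (inv_mul_eq_one.1 h1).symm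
  refine (Nat.card_le_card_of_injective f hf).trans ?_
  have horb : MulAction.orbit ↥(alternatingGroup ↥octA) p = Set.univ := by
    refine Set.eq_univ_of_forall fun r => ?_
    by_cases hr : r = p
    · exact hr ▸ MulAction.mem_orbit_self _
    obtain ⟨s, hs1, hs2⟩ : ∃ s : ↥octA, s ≠ p ∧ s ≠ r := by
      have h8 : Fintype.card ↥octA = 8 := by rw [Fintype.card_coe]; exact octA_mem.2
      obtain ⟨s, -, hs⟩ := Finset.exists_mem_notMem_of_card_lt_card
        (s := ({p, r} : Finset ↥octA)) (t := univ)
        (lt_of_le_of_lt Finset.card_le_two (by rw [Finset.card_univ, h8]; norm_num))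
      simp only [Finset.mem_insert, Finset.mem_singleton, not_or] at hs
      exact ⟨s, hs.1, hs.2⟩
    refine ⟨⟨Equiv.swap p r * Equiv.swap r s, ?_⟩, ?_⟩
    · rw [Equiv.Perm.mem_alternatingGroup, map_mul, Equiv.Perm.sign_swap (Ne.symm hr),
        Equiv.Perm.sign_swap (Ne.symm hs2)]
      rfl
    · show (Equiv.swap p r * Equiv.swap r s) p = r
      rw [Equiv.Perm.mul_apply, Equiv.swap_apply_of_ne_of_ne (Ne.symm hr) (Ne.symm hs1),
        Equiv.swap_apply_left]
  have h := (MulAction.stabilizer ↥(alternatingGroup ↥octA) p).card_mul_index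
  rw [MulAction.index_stabilizer, horb, Set.ncard_univ, Nat.card_eq_fintype_card (α := ↥octA),
    Fintype.card_coe, octA_mem.2] at h
  have hA : 2 * Nat.card ↥(alternatingGroup ↥octA) = 40320 := by
    haveI : Nontrivial ↥octA := Fintype.one_lt_card_iff_nontrivial.1
      (by rw [Fintype.card_coe, octA_mem.2]; norm_num)
    rw [two_mul_nat_card_alternatingGroup, Nat.card_perm, Nat.card_eq_fintype_card,
      Fintype.card_coe, octA_mem.2]
    decide
  omega

/-- The test of a list of images fixing the pair and the first octad. -/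
def moveTestOct (l : List ℕ) : Bool :=
  permTest l && m24Test l && decide (l.getD 23 0 = 23) && decide (l.getD 0 0 = 0) &&
    (List.range 24).all fun i => Data.o1.testBit (l.getD i 0) == Data.o1.testBit i

theorem mem_fixPair_of_test {l : List ℕ} (h : moveTestOct l = true) : ptPerm l ∈ fixPair := by
  simp only [moveTestOct, Bool.and_eq_true, decide_eq_true_eq, List.all_eq_true, List.mem_range,
    beq_iff_eq] at h
  obtain ⟨⟨⟨⟨hp, hm⟩, h23⟩, h0⟩, ho⟩ := h
  refine ⟨⟨⟨ptPerm_mem hp hm, MulAction.mem_stabilizer_iff.2 ?_⟩,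
    MulAction.mem_stabilizer_iff.2 ?_⟩, MulAction.mem_stabilizer_iff.2 ?_⟩
  · refine Finset.eq_of_subset_of_card_le (fun y hy => ?_) (Finset.card_smul_finset _ _).ge
    obtain ⟨x, hx, rfl⟩ := Finset.mem_smul_finset.1 hy
    rw [mem_octA] at hx ⊢
    rw [Equiv.Perm.smul_def, ptPerm_apply hp, ptMap,
      idx_pnt ((permTest_spec hp).1 _ (H15.idx_lt x)), ho _ (H15.idx_lt x), hx]
  · rw [Equiv.Perm.smul_def, ptPerm_apply hp, ptMap, idx_pnt (by norm_num), h23]
  · rw [Equiv.Perm.smul_def, ptPerm_apply hp, ptMap, idx_pnt (by norm_num), h0]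

/-- The mask of the image of the second octad. -/
def octImage (l : List ℕ) : ℕ :=
  (List.range 24).foldr (fun i acc => (if Data.o2.testBit i then 2 ^ l.getD i 0 else 0) ^^^ acc) 0

theorem card_stab_le : Nat.card ↥(fixPair ⊓ MulAction.stabilizer (Equiv.Perm GolayPt) octB) ≤ 168 := by
  classical
  have hl : (Data.octMoves.all moveTestOct) = true := by decide +kernel
  let f : Fin Data.octMoves.length → ↥(MulAction.orbit ↥fixPair octB) := fun i =>
    ⟨ptPerm (Data.octMoves[i.1]) • octB, ⟨⟨_, mem_fixPair_of_test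
      (List.all_eq_true.1 hl _ (List.getElem_mem i.2))⟩, rfl⟩⟩
  have hf : Function.Injective f := by
    intro i j e
    have h : ((List.range Data.octMoves.length).all fun i => (List.range Data.octMoves.length).all
        fun j => decide (i = j) || (List.range 24).any fun k =>
          Data.o2.testBit k && (List.range 24).all fun m => !(Data.o2.testBit m) ||
            decide ((Data.octMoves.getD i []).getD k 0 ≠ (Data.octMoves.getD j []).getD m 0)) =
          true := by
      decide +kernel
    have h2 := List.all_eq_true.1 (List.all_eq_true.1 h i.1 (List.mem_range.2 i.2)) j.1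
      (List.mem_range.2 j.2)
    rw [Bool.or_eq_true, decide_eq_true_eq] at h2
    refine Fin.ext (h2.resolve_right fun h3 => ?_)
    simp only [List.any_eq_true, List.mem_range, Bool.and_eq_true, List.all_eq_true, Bool.or_eq_true,
      Bool.not_eq_true', decide_eq_true_eq] at h3
    obtain ⟨k, hk, hk2, hall⟩ := h3
    rw [List.getD_eq_getElem _ _ i.2, List.getD_eq_getElem _ _ j.2] at hall
    have e' : ptPerm (Data.octMoves[i.1]) • octB = ptPerm (Data.octMoves[j.1]) • octB :=
      congrArg Subtype.val e
    have hmem : ptPerm (Data.octMoves[i.1]) • pnt k ∈ ptPerm (Data.octMoves[j.1]) • octB := by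
      rw [← e']
      exact Finset.smul_mem_smul_finset (mem_octB.2 (by rw [idx_pnt hk]; exact hk2))
    obtain ⟨x, hx, hxe⟩ := Finset.mem_smul_finset.1 hmem
    have hti := List.all_eq_true.1 hl _ (List.getElem_mem i.2)
    have htj := List.all_eq_true.1 hl _ (List.getElem_mem j.2)
    simp only [moveTestOct, Bool.and_eq_true] at hti htj
    rw [Equiv.Perm.smul_def, Equiv.Perm.smul_def, ptPerm_apply htj.1.1.1.1,
      ptPerm_apply hti.1.1.1.1] at hxe
    have := congrArg H15.idx hxe
    rw [ptMap, ptMap, idx_pnt ((permTest_spec htj.1.1.1.1).1 _ (H15.idx_lt x)),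
      idx_pnt ((permTest_spec hti.1.1.1.1).1 _ (H15.idx_lt _)), idx_pnt hk] at this
    rcases hall _ (H15.idx_lt x) with h4 | h4
    · rw [mem_octB.1 hx] at h4; cases h4
    · exact h4 this.symm
  have horb : 15 ≤ (MulAction.orbit ↥fixPair octB).ncard := by
    have := Nat.card_le_card_of_injective f hf
    rwa [Nat.card_fin, show Data.octMoves.length = 15 by decide +kernel, Nat.card_coe_set_eq] at this
  have h := card_stab_mul fixPair octB _ rfl
  have := card_fixPair_le
  nlinarith

theorem card_code_signs :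
    Set.ncard {c : GolayPt → ZMod 2 | c ∈ golayCode ∧ (∀ p ∈ octA, c p = 0) ∧ c (pnt 0) = 0} ≤ 16 := by
  classical
  let L := H9.codeList.filter fun n => (List.range 24).all fun i =>
    !(Data.o1.testBit i || i == 0) || !(n.testBit i)
  have hsub : {c : GolayPt → ZMod 2 | c ∈ golayCode ∧ (∀ p ∈ octA, c p = 0) ∧ c (pnt 0) = 0} ⊆
      ((L.toFinset.image H9.natWord : Finset (GolayPt → ZMod 2)) : Set (GolayPt → ZMod 2)) := by
    rintro c ⟨hc, h1, h2⟩
    obtain ⟨n, hn, rfl⟩ := (H9.mem_golayCode_iff c).1 hc
    refine Finset.mem_coe.2 (Finset.mem_image.2 ⟨n, List.mem_toFinset.2 (List.mem_filter.2 ⟨hn, ?_⟩), rfl⟩)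
    simp only [List.all_eq_true, List.mem_range, Bool.or_eq_true, Bool.not_eq_true',
      Bool.or_eq_false_iff]
    intro i hi
    by_contra hcon
    push Not at hcon
    have hb : n.testBit i = true := by simpa using hcon.2
    have hz : H9.natWord n (pnt i) = 0 := by
      by_cases h0 : i = 0
      · subst h0; exact h2
      · refine h1 _ (mem_octA.2 ?_)
        rw [idx_pnt hi]
        by_contra hb2
        exact absurd (by simpa using h0) (hcon.1 (by simpa using hb2))
    have e : (H9.gIdx (pnt i)).val = i := idx_pnt hi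
    simp [H9.natWord, e, hb] at hz
  refine (Set.ncard_le_ncard hsub (Finset.finite_toSet _)).trans ?_
  rw [Set.ncard_coe_finset]
  refine Finset.card_image_le.trans ((List.toFinset_card_le L).trans ?_)
  decide +kernel

/-- The centraliser of the involution, inside `Co0`. -/
noncomputable def CC : Subgroup ↥Co0 := KK ⊓ Subgroup.centralizer {tE}

theorem signFun_apply_natAbs (c : GolayPt → ZMod 2) (y : GolayPt → ℤ) (p : GolayPt) :
    (signFun c y p).natAbs = (y p).natAbs := by
  unfold signFun; split <;> simp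

theorem act_tE_eight (p : GolayPt) :
    act tE (eight p) = if Data.o2.testBit (H15.idx p) then -eight p else eight p := by
  funext r
  have h := sem_tE (eight p) (isLeech_eight p) (H15.idx r) (H15.idx_lt r)
  have hid : Data.spT.im (H15.idx r) = H15.idx r := by
    have : ∀ i < 24, Data.spT.im i = i := by decide +kernel
    exact this _ (H15.idx_lt r)
  have hneg : Data.spT.neg = Data.o2 := by decide +kernel
  rw [hid, pnt_idx, SPerm.sgn, hneg] at h
  rw [h]
  by_cases e : r = p
  · subst e; split <;> simp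
  · split <;> split <;> simp [eight, e]

theorem mono_props {g : ↥Co0} (hg : g ∈ CC) {σ : Equiv.Perm GolayPt} {hσ : σ ∈ M24}
    {c : GolayPt → ZMod 2} {hc : c ∈ golayCode} (e : g = monoAut σ hσ c hc) :
    σ ∈ fixPair ⊓ MulAction.stabilizer (Equiv.Perm GolayPt) octB ∧
      (∀ p ∈ octA, c p = 0) ∧ c (pnt 0) = 0 := by
  have hA : signFun c (permFun σ (aL : V)) = (aL : V) := by
    rw [← act_monoAut hσ hc (IsLeech.coe aL), ← e]
    exact act_of_smul (MulAction.mem_stabilizer_iff.1 hg.1.1)
  have hB : signFun c (permFun σ (bL : V)) = (bL : V) := by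
    rw [← act_monoAut hσ hc (IsLeech.coe bL), ← e]
    exact act_of_smul (MulAction.mem_stabilizer_iff.1 hg.1.2)
  have va : ∀ p : GolayPt, (aL : V) p = if p = pnt 23 ∨ p = pnt 0 then -4 else 0 := by decide +kernel
  have vb : ∀ p : GolayPt, (bL : V) p = if Data.o1.testBit (H15.idx p) then 2 else 0 := by
    decide +kernel
  have absA : ∀ p, ((aL : V) (σ p)).natAbs = ((aL : V) p).natAbs := fun p => by
    conv_lhs => rw [← hA, signFun_apply_natAbs, permFun, Equiv.symm_apply_apply]
  have absB : ∀ p, ((bL : V) (σ p)).natAbs = ((bL : V) p).natAbs := fun p => by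
    conv_lhs => rw [← hB, signFun_apply_natAbs, permFun, Equiv.symm_apply_apply]
  have hO : ∀ p, σ p ∈ octA ↔ p ∈ octA := by
    intro p
    have := absB p
    rw [vb, vb] at this
    rw [mem_octA, mem_octA]
    split at this <;> split at this <;> simp_all
  have hmove : ∀ p, (p = pnt 23 ∨ p = pnt 0) → (σ p = pnt 23 ∨ σ p = pnt 0) := by
    intro p hp
    have := absA p
    rw [va, va, if_pos hp] at this
    by_contra hcon
    rw [if_neg hcon] at this
    simp at this
  have h23 : σ (pnt 23) = pnt 23 :=
    (hmove _ (Or.inl rfl)).resolve_right fun h =>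
      pnt0_not_mem (h ▸ (hO _).2 pnt23_mem)
  have h0 : σ (pnt 0) = pnt 0 :=
    (hmove _ (Or.inr rfl)).resolve_left fun h =>
      pnt0_not_mem ((hO _).1 (h.symm ▸ pnt23_mem))
  have hT : ∀ p, Data.o2.testBit (H15.idx (σ p)) = Data.o2.testBit (H15.idx p) := by
    intro p
    have hcomm : g * tE = tE * g := (Subgroup.mem_centralizer_iff.1 hg.2 tE rfl).symm
    have h1 := congrArg (fun k => act k (eight p)) hcomm
    simp only [mul_act, act_tE_eight] at h1
    have hge : act g (eight p) = if c (σ p) = 0 then eight (σ p) else -eight (σ p) := by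
      rw [e, act_monoAut hσ hc (isLeech_eight p), permFun_eight, signFun_eight]
    have hl : act g (if Data.o2.testBit (H15.idx p) then -eight p else eight p) =
        if Data.o2.testBit (H15.idx p) then -act g (eight p) else act g (eight p) := by
      split
      · exact act_neg g (isLeech_eight p)
      · rfl
    rw [hl, hge] at h1
    by_cases hcp : c (σ p) = 0
    · rw [if_pos hcp] at h1
      rw [act_tE_eight] at h1
      split at h1 <;> rename_i hp <;> split at h1 <;> rename_i hq
      · rw [hp, hq]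
      · exact absurd h1.symm (eight_ne_neg _ _)
      · exact absurd h1 (eight_ne_neg _ _)
      · simp only [Bool.not_eq_true] at hp hq; rw [hp, hq]
    · rw [if_neg hcp] at h1
      rw [act_neg tE (isLeech_eight _), act_tE_eight] at h1
      split at h1 <;> rename_i hp <;> split at h1 <;> rename_i hq
      · rw [hp, hq]
      · exact absurd (neg_injective h1).symm (eight_ne_neg _ _)
      · exact absurd (neg_injective h1) (eight_ne_neg _ _)
      · simp only [Bool.not_eq_true] at hp hq; rw [hp, hq]
  refine ⟨⟨⟨⟨⟨hσ, MulAction.mem_stabilizer_iff.2 ?_⟩, MulAction.mem_stabilizer_iff.2 h23⟩,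
    MulAction.mem_stabilizer_iff.2 h0⟩, MulAction.mem_stabilizer_iff.2 ?_⟩, ?_, ?_⟩
  · refine Finset.eq_of_subset_of_card_le (fun y hy => ?_) (Finset.card_smul_finset _ _).ge
    obtain ⟨x, hx, rfl⟩ := Finset.mem_smul_finset.1 hy
    exact (hO x).2 hx
  · refine Finset.eq_of_subset_of_card_le (fun y hy => ?_) (Finset.card_smul_finset _ _).ge
    obtain ⟨x, hx, rfl⟩ := Finset.mem_smul_finset.1 hy
    rw [mem_octB] at hx ⊢
    rw [Equiv.Perm.smul_def, hT, hx]
  · intro p hp
    obtain ⟨q, rfl⟩ := σ.surjective p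
    have := congrFun hB (σ q)
    rw [signFun, permFun, Equiv.symm_apply_apply, vb, vb, if_pos (mem_octA.1 hp),
      if_pos (mem_octA.1 ((hO q).1 hp))] at this
    by_contra hne
    rw [if_neg hne] at this
    omega
  · have := congrFun hA (pnt 0)
    rw [signFun, permFun, show σ.symm (pnt 0) = pnt 0 by rw [Equiv.symm_apply_eq, h0], va,
      if_pos (Or.inr rfl)] at this
    by_contra hne
    rw [if_neg hne] at this
    omega

/-- The monomial part of the centraliser. -/
theorem card_CC_cross_le : Nat.card ↥(CC ⊓ crossStab) ≤ 2688 := by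
  classical
  choose σ hσ c hc e using fun g : ↥(CC ⊓ crossStab) => exists_mono g.2.2
  let f : ↥(CC ⊓ crossStab) → ↥(fixPair ⊓ MulAction.stabilizer (Equiv.Perm GolayPt) octB) ×
      ↥{c : GolayPt → ZMod 2 | c ∈ golayCode ∧ (∀ p ∈ octA, c p = 0) ∧ c (pnt 0) = 0} :=
    fun g => (⟨σ g, (mono_props g.2.1 (e g)).1⟩, ⟨c g, hc g, (mono_props g.2.1 (e g)).2⟩)
  have hf : Function.Injective f := by
    intro g h eq
    have h1 : σ g = σ h := congrArg (fun z => z.1.1) eq
    have h2 : c g = c h := congrArg (fun z => z.2.1) eq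
    refine Subtype.ext ?_
    rw [e g, e h]
    simp only [h1, h2]
  refine (Nat.card_le_card_of_injective f hf).trans ?_
  rw [Nat.card_prod, Nat.card_coe_set_eq]
  calc _ ≤ 168 * 16 := Nat.mul_le_mul card_stab_le card_code_signs
    _ = 2688 := by norm_num

end Cfsg.Agent.H41.McL
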